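import Mathlib
import Cfsg.Agent.Lib.Helper1.Tools
import Cfsg.Agent.Lib.Helper73.CyclicIndexTwo
import Cfsg.Agent.Lib.Helper73.Suzuki2

/-!
# Subgroups of order `p ^ 3` in `p`-groups of exponent `p`

* `mem_normalizer_of_forall_conj_mem`: in a finite group, `g H g⁻¹ ⊆ H` gives `g ∈ N(H)`.
* `card_sup_dvd_of_le_normalizer`: `|HK|` divides `|H| |K|` when `K` normalizes `H`.
* `comm_of_card_pow_le_two`: groups of order `p ^ j`, `j ≤ 2`, are commutative.
* `card_le_card_centralizer_mul`: if all `[x, a]` lie in a central subgroup `Z₀` then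
  `|X| ≤ |C(a)| |Z₀|`.
* `exists_noncomm_card_cube`: a non-abelian `p`-group of exponent `p` has a non-abelian subgroup
  of order `p ^ 3`.
* `exists_comm_card_cube`: a `p`-group of exponent `p` and order at least `p ^ 4` has an abelian
  subgroup of order `p ^ 3`.
-/

set_option autoImplicit false

namespace Cfsg.Agent.Lib.Helper73

open Cfsg.Agent.Lib.Helper1

/-- In a finite group, an element conjugating `H` into itself normalizes `H`. -/
theorem mem_normalizer_of_forall_conj_mem {X : Type*} [Group X] [Finite X] (H : Subgroup X)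
    (g : X) (h : ∀ a ∈ H, g * a * g⁻¹ ∈ H) : g ∈ Subgroup.normalizer (H : Set X) := by
  rw [Subgroup.mem_normalizer_iff]
  intro a
  refine ⟨h a, fun ha => ?_⟩
  let f : ↥H → ↥H := fun b => ⟨g * (b : X) * g⁻¹, h b b.2⟩
  have hinj : Function.Injective f := by
    intro b c hbc
    have h1 : g * (b : X) * g⁻¹ = g * (c : X) * g⁻¹ := congrArg Subtype.val hbc
    apply Subtype.ext
    have h2 : g * (b : X) = g * (c : X) := mul_right_cancel h1
    exact mul_left_cancel h2
  have hsurj : Function.Surjective f := Finite.injective_iff_surjective.mp hinj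
  obtain ⟨b, hb⟩ := hsurj ⟨g * a * g⁻¹, ha⟩
  have h1 : g * (b : X) * g⁻¹ = g * a * g⁻¹ := congrArg Subtype.val hb
  have h2 : (b : X) = a := mul_left_cancel (mul_right_cancel h1)
  rw [← h2]
  exact b.2

/-- `|H ⊔ K|` divides `|H| |K|` when `K` normalizes `H`. -/
theorem card_sup_dvd_of_le_normalizer {X : Type*} [Group X] (H K : Subgroup X)
    (hK : K ≤ Subgroup.normalizer (H : Set X)) :
    Nat.card (H ⊔ K : Subgroup X) ∣ Nat.card H * Nat.card K := by
  have hHT : H ≤ H ⊔ K := le_sup_left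
  have hKT : K ≤ H ⊔ K := le_sup_right
  haveI : (H.subgroupOf (H ⊔ K)).Normal :=
    (Subgroup.normal_subgroupOf_iff_le_normalizer hHT).mpr (sup_le Subgroup.le_normalizer hK)
  have h := card_sup_mul_card_inf (H.subgroupOf (H ⊔ K)) (K.subgroupOf (H ⊔ K))
  rw [← Subgroup.subgroupOf_sup hHT hKT, Subgroup.subgroupOf_self, Subgroup.card_top,
    card_subgroupOf_of_le hHT, card_subgroupOf_of_le hKT] at h
  exact Dvd.intro _ h

/-- Groups of order `p ^ j` with `j ≤ 2` are commutative. -/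
theorem comm_of_card_pow_le_two {X : Type*} [Group X] [Finite X] {p : ℕ} [Fact p.Prime] {j : ℕ}
    (hj : j ≤ 2) (h : Nat.card X = p ^ j) : ∀ a b : X, a * b = b * a := by
  have hp : p.Prime := Fact.out
  interval_cases j
  · rw [pow_zero] at h
    have : Subsingleton X := (Nat.card_eq_one_iff_unique.mp h).1
    intro a b
    rw [Subsingleton.elim a b]
  · rw [pow_one] at h
    have hc : IsCyclic X := isCyclic_of_prime_card h
    intro a b
    obtain ⟨g, hg⟩ := hc.exists_generator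
    obtain ⟨m, rfl⟩ := Subgroup.mem_zpowers_iff.mp (hg a)
    obtain ⟨n, rfl⟩ := Subgroup.mem_zpowers_iff.mp (hg b)
    rw [← zpow_add, ← zpow_add, add_comm]
  · exact IsPGroup.commutative_of_card_eq_prime_sq h

/-- If all `[x, a]` lie in a central subgroup `Z₀`, then `|X| ≤ |C(a)| * |Z₀|`. -/
theorem card_le_card_centralizer_mul {X : Type*} [Group X] [Finite X] (a : X) (Z₀ : Subgroup X)
    (hZ₀ : Z₀ ≤ Subgroup.center X) (hB : ∀ x : X, x * a * x⁻¹ * a⁻¹ ∈ Z₀) :
    Nat.card X ≤ Nat.card (Subgroup.centralizer ({a} : Set X)) * Nat.card Z₀ := by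
  let φ : X →* ↥Z₀ := MonoidHom.mk'
    (fun x => ⟨x * a * x⁻¹ * a⁻¹, hB x⟩) (by
      intro x y
      apply Subtype.ext
      change (x * y) * a * (x * y)⁻¹ * a⁻¹ = (x * a * x⁻¹ * a⁻¹) * (y * a * y⁻¹ * a⁻¹)
      have hy := Subgroup.mem_center_iff.mp (hZ₀ (hB y))
      have h1 := hy x
      have h2 := hy (x * a * x⁻¹ * a⁻¹)
      calc (x * y) * a * (x * y)⁻¹ * a⁻¹
          = (x * (y * a * y⁻¹ * a⁻¹)) * (a * x⁻¹ * a⁻¹) := by group
        _ = ((y * a * y⁻¹ * a⁻¹) * x) * (a * x⁻¹ * a⁻¹) := by rw [h1]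
        _ = (y * a * y⁻¹ * a⁻¹) * (x * a * x⁻¹ * a⁻¹) := by group
        _ = (x * a * x⁻¹ * a⁻¹) * (y * a * y⁻¹ * a⁻¹) := h2.symm)
  have e1 := Subgroup.card_mul_index φ.ker
  rw [Subgroup.index_ker] at e1
  have h1 : Nat.card φ.range ≤ Nat.card Z₀ := Subgroup.card_le_card_group _
  have h2 : Nat.card φ.ker ≤ Nat.card (Subgroup.centralizer ({a} : Set X)) := by
    apply Subgroup.card_le_of_le
    intro x hx
    rw [Subgroup.mem_centralizer_singleton_iff]
    rw [MonoidHom.mem_ker] at hx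
    have hx' : x * a * x⁻¹ * a⁻¹ = 1 := congrArg Subtype.val hx
    calc x * a = (x * a * x⁻¹ * a⁻¹) * (a * x) := by group
      _ = a * x := by rw [hx', one_mul]
  rw [← e1]
  exact Nat.mul_le_mul h2 h1

/-- A non-abelian `p`-group of exponent `p` has a non-abelian subgroup of order `p ^ 3`. -/
theorem exists_noncomm_card_cube {Q : Type*} [Group Q] [Finite Q] {p : ℕ} [Fact p.Prime]
    (hQ : IsPGroup p Q) (hexp : ∀ x : Q, x ^ p = 1) (hna : ¬ ∀ a b : Q, a * b = b * a) :
    ∃ M : Subgroup Q, Nat.card M = p ^ 3 ∧ ∃ x ∈ M, ∃ y ∈ M, x * y ≠ y * x := by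
  have hp : p.Prime := Fact.out
  have hZtop : Subgroup.center Q ≠ ⊤ := by
    intro h
    apply hna
    intro a b
    have ha : b ∈ Subgroup.center Q := by rw [h]; trivial
    exact Subgroup.mem_center_iff.mp ha a
  have hqnt : Nontrivial (Q ⧸ Subgroup.center Q) := by
    rw [← Finite.one_lt_card_iff_nontrivial, ← Subgroup.index_eq_card]
    have h0 : (Subgroup.center Q).index ≠ 0 := Subgroup.index_ne_zero_of_finite
    have h1 : (Subgroup.center Q).index ≠ 1 := fun h => hZtop (Subgroup.index_eq_one.mp h)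
    omega
  have hqZ : Nontrivial (Subgroup.center (Q ⧸ Subgroup.center Q)) :=
    (hQ.to_quotient (Subgroup.center Q)).center_nontrivial
  obtain ⟨⟨xb, hxb⟩, hxb1⟩ := exists_ne (1 : Subgroup.center (Q ⧸ Subgroup.center Q))
  obtain ⟨x, rfl⟩ := QuotientGroup.mk_surjective xb
  have hxZ : x ∉ Subgroup.center Q := by
    intro h
    apply hxb1
    apply Subtype.ext
    exact (QuotientGroup.eq_one_iff x).mpr h
  have hx2 : ∀ g : Q, x⁻¹ * (g * x * g⁻¹) ∈ Subgroup.center Q := by
    intro g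
    have h1 := Subgroup.mem_center_iff.mp hxb (g : Q ⧸ Subgroup.center Q)
    rw [← QuotientGroup.eq]
    have h2 : ((g * x * g⁻¹ : Q) : Q ⧸ Subgroup.center Q) =
        (g : Q ⧸ Subgroup.center Q) * (x : Q ⧸ Subgroup.center Q) *
          (g : Q ⧸ Subgroup.center Q)⁻¹ := rfl
    rw [h2, h1, mul_inv_cancel_right]
  obtain ⟨y, hy⟩ : ∃ y : Q, y * x ≠ x * y := by
    by_contra hcon
    push Not at hcon
    exact hxZ (Subgroup.mem_center_iff.mpr hcon)
  obtain ⟨c, hcdef⟩ : ∃ c : Q, c = x⁻¹ * (y * x * y⁻¹) := ⟨_, rfl⟩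
  have hc : c ∈ Subgroup.center Q := hcdef ▸ hx2 y
  have hcc : ∀ s : Q, s * c = c * s := Subgroup.mem_center_iff.mp hc
  have hyx : y * x * y⁻¹ = x * c := by rw [hcdef]; group
  have hc1 : c ≠ 1 := by
    intro h
    rw [h, mul_one] at hyx
    apply hy
    calc y * x = y * x * y⁻¹ * y := by group
      _ = x * y := by rw [hyx]
  have hx1 : x ≠ 1 := by
    rintro rfl
    exact hy (by rw [mul_one, one_mul])
  have hy1 : y ≠ 1 := by
    rintro rfl
    exact hy (by rw [mul_one, one_mul])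
  have hox : orderOf x = p := orderOf_eq_prime (hexp x) hx1
  have hoy : orderOf y = p := orderOf_eq_prime (hexp y) hy1
  have hoc : orderOf c = p := orderOf_eq_prime (hexp c) hc1
  haveI hcN : (Subgroup.zpowers c).Normal := zpowers_normal_of_central hcc
  have hH1 := card_sup_mul_card_inf (Subgroup.zpowers c) (Subgroup.zpowers x)
  rw [Nat.card_zpowers, Nat.card_zpowers, hox, hoc] at hH1
  have hH1d : Nat.card (Subgroup.zpowers c ⊔ Subgroup.zpowers x : Subgroup Q) ∣ p * p :=
    Dvd.intro _ hH1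
  have hxH : x ∈ Subgroup.zpowers c ⊔ Subgroup.zpowers x :=
    (le_sup_right : Subgroup.zpowers x ≤ _) (Subgroup.mem_zpowers x)
  have hcH : c ∈ Subgroup.zpowers c ⊔ Subgroup.zpowers x :=
    (le_sup_left : Subgroup.zpowers c ≤ _) (Subgroup.mem_zpowers c)
  have hconj : ∀ a ∈ Subgroup.zpowers c ⊔ Subgroup.zpowers x,
      y * a * y⁻¹ ∈ Subgroup.zpowers c ⊔ Subgroup.zpowers x := by
    have hmap : (Subgroup.zpowers c ⊔ Subgroup.zpowers x).map (MulAut.conj y).toMonoidHom ≤
        Subgroup.zpowers c ⊔ Subgroup.zpowers x := by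
      rw [Subgroup.map_sup, MonoidHom.map_zpowers, MonoidHom.map_zpowers]
      apply sup_le
      · rw [Subgroup.zpowers_le]
        have h1 : (MulAut.conj y).toMonoidHom c = c := by
          change y * c * y⁻¹ = c
          rw [hcc y, mul_inv_cancel_right]
        rw [h1]; exact hcH
      · rw [Subgroup.zpowers_le]
        have h1 : (MulAut.conj y).toMonoidHom x = x * c := hyx
        rw [h1]
        exact Subgroup.mul_mem _ hxH hcH
    intro a ha
    exact hmap (Subgroup.mem_map_of_mem _ ha)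
  have hyN : Subgroup.zpowers y ≤
      Subgroup.normalizer ((Subgroup.zpowers c ⊔ Subgroup.zpowers x : Subgroup Q) : Set Q) := by
    rw [Subgroup.zpowers_le]
    exact mem_normalizer_of_forall_conj_mem _ y hconj
  have hMd := card_sup_dvd_of_le_normalizer _ _ hyN
  rw [Nat.card_zpowers, hoy] at hMd
  have hMd3 : Nat.card ((Subgroup.zpowers c ⊔ Subgroup.zpowers x) ⊔ Subgroup.zpowers y :
      Subgroup Q) ∣ p ^ 3 := by
    refine hMd.trans ?_
    have : p ^ 3 = p * p * p := by ring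
    rw [this]
    exact Nat.mul_dvd_mul_right hH1d p
  refine ⟨(Subgroup.zpowers c ⊔ Subgroup.zpowers x) ⊔ Subgroup.zpowers y, ?_, x,
    le_sup_left (a := Subgroup.zpowers c ⊔ Subgroup.zpowers x) hxH, y,
    (le_sup_right : Subgroup.zpowers y ≤ _) (Subgroup.mem_zpowers y), fun h => hy h.symm⟩
  obtain ⟨j, hj3, hj⟩ := (Nat.dvd_prime_pow hp).mp hMd3
  by_contra hne
  have hj2 : j ≤ 2 := by
    by_contra hj2
    have : j = 3 := by omega
    rw [this] at hj
    exact hne hj
  have hcomm := comm_of_card_pow_le_two hj2 hj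
  have h1 := hcomm ⟨x, le_sup_left (a := Subgroup.zpowers c ⊔ Subgroup.zpowers x) hxH⟩
    ⟨y, (le_sup_right : Subgroup.zpowers y ≤ _) (Subgroup.mem_zpowers y)⟩
  have h2 : x * y = y * x := congrArg Subtype.val h1
  exact hy h2.symm

/-- A `p`-group of exponent `p` and order `p ^ k`, `k ≥ 4`, has an abelian subgroup of order
`p ^ 3`. -/
theorem exists_comm_card_cube {Q : Type*} [Group Q] [Finite Q] {p : ℕ} [Fact p.Prime]
    (hQ : IsPGroup p Q) (hexp : ∀ x : Q, x ^ p = 1) {k : ℕ} (hk : 4 ≤ k)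
    (hcard : Nat.card Q = p ^ k) :
    ∃ A : Subgroup Q, Nat.card A = p ^ 3 ∧ ∀ a ∈ A, ∀ b ∈ A, a * b = b * a := by
  have hp : p.Prime := Fact.out
  have hQnt : Nontrivial Q := by
    rw [← Finite.one_lt_card_iff_nontrivial, hcard]
    exact Nat.one_lt_pow (by omega) hp.one_lt
  have hZnt : Nontrivial (Subgroup.center Q) := hQ.center_nontrivial
  obtain ⟨⟨z, hz⟩, hz1⟩ := exists_ne (1 : Subgroup.center Q)
  have hz1' : z ≠ 1 := fun h => hz1 (Subtype.ext h)
  have hzc : ∀ s : Q, s * z = z * s := Subgroup.mem_center_iff.mp hz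
  have hoz : orderOf z = p := orderOf_eq_prime (hexp z) hz1'
  haveI hzN : (Subgroup.zpowers z).Normal := zpowers_normal_of_central hzc
  have hZzcard : Nat.card (Subgroup.zpowers z) = p := by rw [Nat.card_zpowers, hoz]
  have hZzle : Subgroup.zpowers z ≤ Subgroup.center Q := by
    rw [Subgroup.zpowers_le]; exact hz
  -- the quotient
  have hqcard : Nat.card (Q ⧸ Subgroup.zpowers z) * p = p ^ k := by
    have h := Subgroup.card_eq_card_quotient_mul_card_subgroup (Subgroup.zpowers z)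
    rw [hZzcard, hcard] at h
    exact h.symm
  have hqcard' : Nat.card (Q ⧸ Subgroup.zpowers z) = p ^ (k - 1) := by
    have h2 : p ^ k = p ^ (k - 1) * p := by
      rw [← pow_succ]; congr 1; omega
    rw [h2] at hqcard
    exact Nat.eq_of_mul_eq_mul_right hp.pos hqcard
  have hqnt : Nontrivial (Q ⧸ Subgroup.zpowers z) := by
    rw [← Finite.one_lt_card_iff_nontrivial, hqcard']
    exact Nat.one_lt_pow (by omega) hp.one_lt
  have hqZ : Nontrivial (Subgroup.center (Q ⧸ Subgroup.zpowers z)) :=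
    (hQ.to_quotient (Subgroup.zpowers z)).center_nontrivial
  obtain ⟨⟨ub, hub⟩, hub1⟩ := exists_ne (1 : Subgroup.center (Q ⧸ Subgroup.zpowers z))
  have hub1' : ub ≠ 1 := fun h => hub1 (Subtype.ext h)
  have hubc : ∀ s : Q ⧸ Subgroup.zpowers z, s * ub = ub * s := Subgroup.mem_center_iff.mp hub
  obtain ⟨u, rfl⟩ := QuotientGroup.mk_surjective ub
  have hubp : ((u : Q ⧸ Subgroup.zpowers z)) ^ p = 1 := by
    rw [← QuotientGroup.mk_pow, hexp u]; rfl
  have houb : orderOf (u : Q ⧸ Subgroup.zpowers z) = p := orderOf_eq_prime hubp hub1'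
  haveI hubN : (Subgroup.zpowers (u : Q ⧸ Subgroup.zpowers z)).Normal :=
    zpowers_normal_of_central hubc
  -- the normal subgroup `N = ⟨z, u⟩`
  obtain ⟨N, hNdef⟩ : ∃ N : Subgroup Q, N = (Subgroup.zpowers (u : Q ⧸ Subgroup.zpowers z)).comap
      (QuotientGroup.mk' (Subgroup.zpowers z)) := ⟨_, rfl⟩
  haveI hNn : N.Normal := by
    rw [hNdef]; exact Subgroup.Normal.comap hubN _
  have hNcard : Nat.card N = p * p := by
    rw [hNdef, card_comap_quotient_mk, hZzcard, Nat.card_zpowers, houb]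
  have hNmem : ∀ n ∈ N, ∃ (j i : ℤ), n = u ^ j * z ^ i := by
    intro n hn
    rw [hNdef, Subgroup.mem_comap] at hn
    obtain ⟨j, hj⟩ := Subgroup.mem_zpowers_iff.mp hn
    have h1 : ((u ^ j : Q) : Q ⧸ Subgroup.zpowers z) = (n : Q ⧸ Subgroup.zpowers z) := by
      rw [QuotientGroup.mk_zpow]; exact hj
    rw [QuotientGroup.eq] at h1
    obtain ⟨i, hi⟩ := Subgroup.mem_zpowers_iff.mp h1
    refine ⟨j, i, ?_⟩
    rw [hi]; group
  have hNcomm : ∀ a ∈ N, ∀ b ∈ N, a * b = b * a := by
    intro a ha b hb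
    have h1 := IsPGroup.commutative_of_card_eq_prime_sq (G := ↥N) (p := p)
      (by rw [hNcard, pow_two]) ⟨a, ha⟩ ⟨b, hb⟩
    exact congrArg Subtype.val h1
  -- the centralizer of `u`
  have hu2 : ∀ g : Q, g * u * g⁻¹ * u⁻¹ ∈ Subgroup.zpowers z := by
    intro g
    rw [← QuotientGroup.eq_one_iff]
    have h1 := hubc (g : Q ⧸ Subgroup.zpowers z)
    have h2 : ((g * u * g⁻¹ * u⁻¹ : Q) : Q ⧸ Subgroup.zpowers z) =
        (g : Q ⧸ Subgroup.zpowers z) * (u : Q ⧸ Subgroup.zpowers z) *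
          (g : Q ⧸ Subgroup.zpowers z)⁻¹ * (u : Q ⧸ Subgroup.zpowers z)⁻¹ := rfl
    rw [h2, h1, mul_inv_cancel_right, mul_inv_cancel]
  have hCcard := card_le_card_centralizer_mul u (Subgroup.zpowers z) hZzle hu2
  rw [hZzcard, hcard] at hCcard
  have hClt : Nat.card N < Nat.card (Subgroup.centralizer ({u} : Set Q)) := by
    rw [hNcard]
    have h2 : p ^ k = p ^ (k - 1) * p := by
      rw [← pow_succ]; congr 1; omega
    rw [h2] at hCcard
    have h3 : p ^ (k - 1) ≤ Nat.card (Subgroup.centralizer ({u} : Set Q)) :=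
      Nat.le_of_mul_le_mul_right hCcard hp.pos
    have h4 : p ^ 3 ≤ p ^ (k - 1) := Nat.pow_le_pow_right hp.pos (by omega)
    have h5 : p * p < p ^ 3 := by
      have : p ^ 3 = p * p * p := by ring
      rw [this]
      have h6 : 0 < p * p := Nat.mul_pos hp.pos hp.pos
      have h7 := hp.one_lt
      nlinarith
    omega
  obtain ⟨w, hwC, hwN⟩ : ∃ w ∈ Subgroup.centralizer ({u} : Set Q), w ∉ N := by
    by_contra hcon
    push Not at hcon
    have := Subgroup.card_le_of_le (show Subgroup.centralizer ({u} : Set Q) ≤ N from hcon)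
    omega
  have hwu : w * u = u * w := Subgroup.mem_centralizer_singleton_iff.mp hwC
  have hw1 : w ≠ 1 := by
    rintro rfl
    exact hwN N.one_mem
  have how : orderOf w = p := orderOf_eq_prime (hexp w) hw1
  have hwcard : Nat.card (Subgroup.zpowers w) = p := by rw [Nat.card_zpowers, how]
  -- the intersection is trivial
  have hinf : Nat.card (N ⊓ Subgroup.zpowers w : Subgroup Q) = 1 := by
    have hd : Nat.card (N ⊓ Subgroup.zpowers w : Subgroup Q) ∣ p := by
      rw [← hwcard]; exact Subgroup.card_dvd_of_le inf_le_right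
    rcases (Nat.dvd_prime hp).mp hd with h | h
    · exact h
    · exfalso
      have heq : N ⊓ Subgroup.zpowers w = Subgroup.zpowers w :=
        Subgroup.eq_of_le_of_card_ge inf_le_right (by rw [h, hwcard])
      have : w ∈ N ⊓ Subgroup.zpowers w := by rw [heq]; exact Subgroup.mem_zpowers w
      exact hwN this.1
  have hA := card_sup_mul_card_inf N (Subgroup.zpowers w)
  rw [hinf, mul_one, hNcard, hwcard] at hA
  refine ⟨N ⊔ Subgroup.zpowers w, by rw [hA]; ring, ?_⟩
  -- commutativity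
  have hwn : ∀ n ∈ N, w * n = n * w := by
    intro n hn
    obtain ⟨j, i, rfl⟩ := hNmem n hn
    have h1 : Commute w (u ^ j) := (show Commute w u from hwu).zpow_right j
    have h2 : Commute w (z ^ i) := (show Commute w z from hzc w).zpow_right i
    exact (h1.mul_right h2).eq
  have hS : ∀ a ∈ (N : Set Q) ∪ {w}, ∀ b ∈ (N : Set Q) ∪ {w}, a * b = b * a := by
    rintro a (ha | ha) b (hb | hb)
    · exact hNcomm a ha b hb
    · rw [Set.mem_singleton_iff] at hb
      rw [hb]; exact (hwn a ha).symm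
    · rw [Set.mem_singleton_iff] at ha
      rw [ha]; exact hwn b hb
    · rw [Set.mem_singleton_iff] at ha hb
      rw [ha, hb]
  have hcl : N ⊔ Subgroup.zpowers w = Subgroup.closure ((N : Set Q) ∪ {w}) := by
    rw [Subgroup.closure_union, Subgroup.closure_eq, Subgroup.zpowers_eq_closure]
  have hcomm := Subgroup.isMulCommutative_closure hS
  intro a ha b hb
  rw [hcl] at ha hb
  have h1 := mul_comm' (⟨a, ha⟩ : Subgroup.closure ((N : Set Q) ∪ {w})) ⟨b, hb⟩
  exact congrArg Subtype.val h1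

end Cfsg.Agent.Lib.Helper73
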