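import Mathlib
import Cfsg.Agent.Lib.Helper1.Commutator
import Cfsg.Agent.Lib.Helper1.CoprimeAbelian
import Cfsg.Agent.Lib.Helper1.Tools
import Cfsg.Agent.Lib.Helper1.Basic

set_option autoImplicit false

/-!
Generation of fixed points of a coprime operator group `P` of prime order on `[L, P]` by the
fixed points on the subgroups `[h, P]` (ambient form): basic definitions and lemmas.
-/

namespace Cfsg.Agent.Lib.Helper73.Flv

open scoped commutatorElement
open Cfsg.Agent.Lib.Helper1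

universe u

variable {G : Type u} [Group G]

/-- `[h, P]`: the subgroup generated by the `h⁻¹ (a h a⁻¹)`, `a ∈ P`. -/
def cmh (P : Subgroup G) (h : G) : Subgroup G :=
  Subgroup.closure {c | ∃ a ∈ P, c = h⁻¹ * a * h * a⁻¹}

theorem cmh_gen_mem (P : Subgroup G) (h : G) {a : G} (ha : a ∈ P) :
    h⁻¹ * a * h * a⁻¹ ∈ cmh P h := Subgroup.subset_closure ⟨a, ha, rfl⟩

theorem cmh_le (P : Subgroup G) (h : G) (T : Subgroup G)
    (hT : ∀ a ∈ P, h⁻¹ * a * h * a⁻¹ ∈ T) : cmh P h ≤ T := by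
  rw [cmh, Subgroup.closure_le]
  rintro _ ⟨a, ha, rfl⟩
  exact hT a ha

theorem cmh_le_commutator {P L : Subgroup G} {h : G} (hh : h ∈ L) : cmh P h ≤ ⁅L, P⁆ := by
  apply cmh_le
  intro a ha
  have e : h⁻¹ * a * h * a⁻¹ = ⁅h⁻¹, a⁆ := by simp [commutatorElement_def]
  rw [e]
  exact Subgroup.commutator_mem_commutator (L.inv_mem hh) ha

theorem commutator_le_of_cmh {P L T : Subgroup G} (hT : ∀ h ∈ L, cmh P h ≤ T) :
    ⁅L, P⁆ ≤ T := by
  rw [Subgroup.commutator_le]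
  intro l hl a ha
  have h1 := hT l⁻¹ (L.inv_mem hl) (cmh_gen_mem P l⁻¹ ha)
  have e : ⁅l, a⁆ = (l⁻¹)⁻¹ * a * l⁻¹ * a⁻¹ := by simp [commutatorElement_def]
  rw [e]; exact h1

theorem cmh_le_of_mem {P L : Subgroup G} (hPL : P ≤ Subgroup.normalizer (L : Set G)) {h : G}
    (hh : h ∈ L) : cmh P h ≤ L :=
  (cmh_le_commutator hh).trans (commutator_le_of_le_normalizer hPL)

theorem cmh_normalized (P : Subgroup G) (h : G) :
    P ≤ Subgroup.normalizer (cmh P h : Set G) := by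
  rw [cmh, Subgroup.le_normalizer_closure_iff]
  rintro b hb _ ⟨a, ha, rfl⟩
  have e : b * (h⁻¹ * a * h * a⁻¹) * b⁻¹
      = (h⁻¹ * b * h * b⁻¹)⁻¹ * (h⁻¹ * (b * a) * h * (b * a)⁻¹) := by group
  rw [e]
  exact Subgroup.mul_mem _ (Subgroup.inv_mem _ (Subgroup.subset_closure ⟨b, hb, rfl⟩))
    (Subgroup.subset_closure ⟨b * a, P.mul_mem hb ha, rfl⟩)

theorem cmh_conj {P : Subgroup G} {c : G} (hc : c ∈ Subgroup.centralizer (P : Set G)) (h : G)
    {y : G} (hy : y ∈ cmh P h) : c⁻¹ * y * c ∈ cmh P (c⁻¹ * h * c) := by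
  have hle : cmh P h ≤ (cmh P (c⁻¹ * h * c)).comap (MulAut.conj c⁻¹).toMonoidHom := by
    apply cmh_le
    intro a ha
    rw [Subgroup.mem_comap]
    have hca : a * c = c * a := Subgroup.mem_centralizer_iff.mp hc a ha
    have h1 : c * a * c⁻¹ = a := by rw [← hca]; group
    have h2 : c * a⁻¹ = a⁻¹ * c := by
      calc c * a⁻¹ = a⁻¹ * (a * c) * a⁻¹ := by group
        _ = a⁻¹ * (c * a) * a⁻¹ := by rw [hca]
        _ = a⁻¹ * c := by group
    have e : (MulAut.conj c⁻¹).toMonoidHom (h⁻¹ * a * h * a⁻¹)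
        = (c⁻¹ * h * c)⁻¹ * a * (c⁻¹ * h * c) * a⁻¹ := by
      have e1 : (c⁻¹ * h * c)⁻¹ * a * (c⁻¹ * h * c) * a⁻¹
          = c⁻¹ * h⁻¹ * (c * a * c⁻¹) * h * (c * a⁻¹) := by group
      rw [e1, h1, h2]
      simp only [MulEquiv.coe_toMonoidHom, MulAut.conj_apply, inv_inv]
      group
    rw [e]
    exact cmh_gen_mem P _ ha
  have h3 := hle hy
  rw [Subgroup.mem_comap] at h3
  simpa using h3

theorem cmh_map {G' : Type*} [Group G'] (f : G →* G') (P : Subgroup G) (h : G) :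
    (cmh P h).map f = cmh (P.map f) (f h) := by
  rw [cmh, cmh, MonoidHom.map_closure]
  congr 1
  ext c
  constructor
  · rintro ⟨_, ⟨a, ha, rfl⟩, rfl⟩
    exact ⟨f a, Subgroup.mem_map_of_mem f ha, by simp⟩
  · rintro ⟨_, ⟨a, ha, rfl⟩, rfl⟩
    exact ⟨h⁻¹ * a * h * a⁻¹, ⟨a, ha, rfl⟩, by simp⟩

/-- `[h, P]` is `P`-perfect for coprime action of a group of prime order. -/
theorem cmh_perfect [Finite G] {p : ℕ} {P : Subgroup G} (hP : Nat.card P = p) (h : G)
    (hcop : (Nat.card (cmh P h)).Coprime p) : ⁅cmh P h, P⁆ = cmh P h := by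
  have hPD : P ≤ Subgroup.normalizer (cmh P h : Set G) := cmh_normalized P h
  apply le_antisymm (commutator_le_of_le_normalizer hPD)
  have hDT : cmh P h ≤ Subgroup.normalizer ((⁅cmh P h, P⁆ : Subgroup G) : Set G) :=
    le_normalizer_commutator_left (cmh P h) P
  apply cmh_le
  intro b hb
  have key : ∀ k : ℕ, ((h⁻¹ * b * h * b⁻¹) ^ k)⁻¹ * (h⁻¹ * b ^ k * h * (b ^ k)⁻¹)
      ∈ ⁅cmh P h, P⁆ := by
    intro k
    induction k with
    | zero => simp
    | succ k ih =>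
      have hck : h⁻¹ * b ^ k * h * (b ^ k)⁻¹ ∈ cmh P h := cmh_gen_mem P h (P.pow_mem hb k)
      have hcomm : (h⁻¹ * b ^ k * h * (b ^ k)⁻¹)⁻¹ * b * (h⁻¹ * b ^ k * h * (b ^ k)⁻¹) * b⁻¹
          ∈ ⁅cmh P h, P⁆ := by
        have e : (h⁻¹ * b ^ k * h * (b ^ k)⁻¹)⁻¹ * b * (h⁻¹ * b ^ k * h * (b ^ k)⁻¹) * b⁻¹
            = ⁅(h⁻¹ * b ^ k * h * (b ^ k)⁻¹)⁻¹, b⁆ := by simp [commutatorElement_def]
        rw [e]
        exact Subgroup.commutator_mem_commutator ((cmh P h).inv_mem hck) hb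
      have e : ((h⁻¹ * b * h * b⁻¹) ^ (k + 1))⁻¹ * (h⁻¹ * b ^ (k + 1) * h * (b ^ (k + 1))⁻¹)
          = (((h⁻¹ * b * h * b⁻¹) ^ k)⁻¹ * (h⁻¹ * b ^ k * h * (b ^ k)⁻¹)) *
            ((h⁻¹ * b ^ k * h * (b ^ k)⁻¹)⁻¹ * b * (h⁻¹ * b ^ k * h * (b ^ k)⁻¹) * b⁻¹) := by
        rw [pow_succ' (h⁻¹ * b * h * b⁻¹) k, pow_succ' b k]
        generalize (h⁻¹ * b * h * b⁻¹) ^ k = w
        generalize b ^ k = u
        group
      rw [e]
      exact Subgroup.mul_mem _ ih hcomm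
  have hbp : b ^ p = 1 := by
    have h1 : (⟨b, hb⟩ : P) ^ Nat.card P = 1 := pow_card_eq_one'
    rw [hP] at h1
    have h2 := congrArg Subtype.val h1
    simpa using h2
  have h1 := key p
  rw [hbp] at h1
  have h2 : (h⁻¹ * b * h * b⁻¹) ^ p ∈ ⁅cmh P h, P⁆ := by
    have h3 : ((h⁻¹ * b * h * b⁻¹) ^ p)⁻¹ ∈ ⁅cmh P h, P⁆ := by simpa using h1
    simpa using Subgroup.inv_mem _ h3
  have hc : h⁻¹ * b * h * b⁻¹ ∈ cmh P h := cmh_gen_mem P h hb
  have hord : orderOf (h⁻¹ * b * h * b⁻¹) ∣ Nat.card (cmh P h) := by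
    have h4 : orderOf (⟨h⁻¹ * b * h * b⁻¹, hc⟩ : cmh P h) ∣ Nat.card (cmh P h) :=
      orderOf_dvd_natCard _
    rwa [Subgroup.orderOf_mk] at h4
  have hcop2 : p.Coprime (orderOf (h⁻¹ * b * h * b⁻¹)) :=
    (Nat.Coprime.coprime_dvd_left hord hcop).symm
  obtain ⟨m, hm⟩ := exists_pow_eq_self_of_coprime hcop2
  rw [← hm]
  exact Subgroup.pow_mem _ h2 m

/-- The subgroup generated by the fixed points of `P` on the `[h, P]`, `h ∈ L`. -/
def KK (P L : Subgroup G) : Subgroup G :=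
  ⨆ h : L, cmh P (h : G) ⊓ Subgroup.centralizer (P : Set G)

theorem cmh_inf_le_KK {P L : Subgroup G} {h : G} (hh : h ∈ L) :
    cmh P h ⊓ Subgroup.centralizer (P : Set G) ≤ KK P L :=
  le_iSup (fun h : L => cmh P (h : G) ⊓ Subgroup.centralizer (P : Set G)) ⟨h, hh⟩

theorem KK_le {P L T : Subgroup G}
    (hT : ∀ h ∈ L, cmh P h ⊓ Subgroup.centralizer (P : Set G) ≤ T) : KK P L ≤ T :=
  iSup_le fun h => hT h h.2

theorem KK_mono {P L L' : Subgroup G} (h : L' ≤ L) : KK P L' ≤ KK P L :=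
  KK_le fun _ hx => cmh_inf_le_KK (h hx)

theorem KK_le_centralizer (P L : Subgroup G) : KK P L ≤ Subgroup.centralizer (P : Set G) :=
  KK_le fun _ _ => inf_le_right

theorem KK_le_commutator (P L : Subgroup G) : KK P L ≤ ⁅L, P⁆ :=
  KK_le fun _ hh => inf_le_left.trans (cmh_le_commutator hh)

theorem KK_conj {P L : Subgroup G} {c : G} (hcL : c ∈ L)
    (hc : c ∈ Subgroup.centralizer (P : Set G)) {k : G} (hk : k ∈ KK P L) :
    c⁻¹ * k * c ∈ KK P L := by
  have hle : KK P L ≤ (KK P L).comap (MulAut.conj c⁻¹).toMonoidHom := by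
    apply KK_le
    intro h hh y hy
    rw [Subgroup.mem_comap]
    have h1 : c⁻¹ * y * c ∈ cmh P (c⁻¹ * h * c) := cmh_conj hc h (Subgroup.mem_inf.mp hy).1
    have h2 : c⁻¹ * y * c ∈ Subgroup.centralizer (P : Set G) :=
      Subgroup.mul_mem _ (Subgroup.mul_mem _ (Subgroup.inv_mem _ hc) (Subgroup.mem_inf.mp hy).2) hc
    have h3 : c⁻¹ * h * c ∈ L := L.mul_mem (L.mul_mem (L.inv_mem hcL) hh) hcL
    have e : (MulAut.conj c⁻¹).toMonoidHom y = c⁻¹ * y * c := by simp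
    rw [e]
    exact cmh_inf_le_KK h3 (Subgroup.mem_inf.mpr ⟨h1, h2⟩)
  have h3 := hle hk
  rw [Subgroup.mem_comap] at h3
  simpa using h3

/-! ### Generic lemmas -/

theorem le_normalizer_commutator {H A B : Subgroup G}
    (hA : H ≤ Subgroup.normalizer (A : Set G)) (hB : H ≤ Subgroup.normalizer (B : Set G)) :
    H ≤ Subgroup.normalizer ((⁅A, B⁆ : Subgroup G) : Set G) := by
  rw [Subgroup.commutator_def, Subgroup.le_normalizer_closure_iff]
  rintro h hh _ ⟨a, ha, b, hb, rfl⟩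
  have e : h * ⁅a, b⁆ * h⁻¹ = ⁅h * a * h⁻¹, h * b * h⁻¹⁆ := by
    simp only [commutatorElement_def]; group
  rw [e]
  exact Subgroup.subset_closure
    ⟨_, (Subgroup.mem_normalizer_iff.mp (hA hh) a).mp ha, _,
      (Subgroup.mem_normalizer_iff.mp (hB hh) b).mp hb, rfl⟩

theorem le_normalizer_inf {H A B : Subgroup G}
    (hA : H ≤ Subgroup.normalizer (A : Set G)) (hB : H ≤ Subgroup.normalizer (B : Set G)) :
    H ≤ Subgroup.normalizer ((A ⊓ B : Subgroup G) : Set G) := by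
  intro h hh
  rw [Subgroup.mem_normalizer_iff]
  intro x
  rw [Subgroup.mem_inf, Subgroup.mem_inf, ← Subgroup.mem_normalizer_iff.mp (hA hh) x,
    ← Subgroup.mem_normalizer_iff.mp (hB hh) x]

theorem le_normalizer_sup {H A B : Subgroup G}
    (hA : H ≤ Subgroup.normalizer (A : Set G)) (hB : H ≤ Subgroup.normalizer (B : Set G)) :
    H ≤ Subgroup.normalizer ((A ⊔ B : Subgroup G) : Set G) := by
  rw [Subgroup.sup_eq_closure, Subgroup.le_normalizer_closure_iff]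
  rintro h hh g (hg | hg)
  · exact Subgroup.subset_closure (Or.inl ((Subgroup.mem_normalizer_iff.mp (hA hh) g).mp hg))
  · exact Subgroup.subset_closure (Or.inr ((Subgroup.mem_normalizer_iff.mp (hB hh) g).mp hg))

theorem le_normalizer_centralizer {H A : Subgroup G}
    (hA : H ≤ Subgroup.normalizer (A : Set G)) :
    H ≤ Subgroup.normalizer ((Subgroup.centralizer (A : Set G) : Subgroup G) : Set G) := by
  rw [Subgroup.le_normalizer_iff]
  intro h hh k hk
  rw [Subgroup.mem_centralizer_iff] at hk ⊢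
  intro a ha
  have h1 : h⁻¹ * a * h ∈ A := by
    have := (Subgroup.mem_normalizer_iff.mp (H.inv_mem (hA hh |> fun _ => hh) |> hA) a).mp ha
    simpa using this
  have h2 := hk _ h1
  calc a * (h * k * h⁻¹) = h * ((h⁻¹ * a * h) * k) * h⁻¹ := by group
    _ = h * (k * (h⁻¹ * a * h)) * h⁻¹ := by rw [h2]
    _ = h * k * h⁻¹ * a := by group

theorem exists_minimal_subgroup [Finite G] (S : Set (Subgroup G)) (hS : S.Nonempty) :
    ∃ N ∈ S, ∀ N' ∈ S, N' ≤ N → N' = N := by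
  obtain ⟨N, hN, hmin⟩ :=
    (measure (fun N : Subgroup G => Nat.card N)).wf.has_min S hS
  refine ⟨N, hN, fun N' hN' hle => ?_⟩
  by_contra hne
  exact hmin N' hN' (card_lt_card_of_lt (lt_of_le_of_ne hle hne))

theorem commutator_ne_self_of_solvable {V : Subgroup G} (hsolv : Group.IsSolvable V)
    (hV : V ≠ ⊥) : ⁅V, V⁆ ≠ V := by
  intro h
  have hnon : Nontrivial ↥V := (Subgroup.nontrivial_iff_ne_bot V).mpr hV
  have h1 : commutator ↥V < ⊤ := Group.IsSolvable.commutator_lt_top_of_nontrivial ↥V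
  have h2 : (commutator ↥V).map V.subtype = ⁅V, V⁆ := Subgroup.map_subtype_commutator V
  have h3 : (commutator ↥V).map V.subtype = (⊤ : Subgroup ↥V).map V.subtype := by
    rw [h2, h, ← MonoidHom.range_eq_map, Subgroup.range_subtype]
  exact h1.ne (Subgroup.map_injective V.subtype_injective h3)

theorem abelian_of_commutator_eq_bot {V : Subgroup G} (h : ⁅V, V⁆ = ⊥) :
    ∀ a ∈ V, ∀ b ∈ V, a * b = b * a := by
  intro a ha b hb
  have h1 := (Subgroup.commutator_eq_bot_iff_le_centralizer.mp h) ha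
  exact (Subgroup.mem_centralizer_iff.mp h1 b hb).symm

theorem isMulCommutative_of_forall {V : Subgroup G} (h : ∀ a ∈ V, ∀ b ∈ V, a * b = b * a) :
    IsMulCommutative V :=
  ⟨⟨fun a b => Subtype.ext (h a a.2 b b.2)⟩⟩

theorem solvable_of_prime_card {p : ℕ} (hp : p.Prime) {P : Subgroup G} (hP : Nat.card P = p) :
    Group.IsSolvable P := by
  haveI : Fact p.Prime := ⟨hp⟩
  haveI : IsCyclic ↥P := isCyclic_of_prime_card hP
  exact Group.isSolvable_of_comm (fun a b => IsCyclic.commGroup.mul_comm a b)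

/-! ### The minimal counterexample context -/

/-- The context of a minimal counterexample. `K` stands for `KK P L`. -/
structure Cex (p : ℕ) (P L K : Subgroup G) : Prop where
  hp : p.Prime
  hp2 : p ≠ 2
  hP : Nat.card P = p
  hPL : P ≤ Subgroup.normalizer (L : Set G)
  hcop : (Nat.card L).Coprime p
  hsolv : Group.IsSolvable L
  hLL : ⁅L, P⁆ = L
  hKL : K ≤ L
  hKC : K ≤ Subgroup.centralizer (P : Set G)
  hcmh : ∀ h ∈ L, cmh P h ⊓ Subgroup.centralizer (P : Set G) ≤ K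
  T1 : ∀ c ∈ L, c ∈ Subgroup.centralizer (P : Set G) → ∀ k ∈ K, c⁻¹ * k * c ∈ K
  T2 : ∀ L' : Subgroup G, L' ≤ L → P ≤ Subgroup.normalizer (L' : Set G) → L' ≠ L →
    ⁅L', P⁆ ⊓ Subgroup.centralizer (P : Set G) ≤ K
  T3 : ∀ N : Subgroup G, N ≤ L → N ≠ ⊥ → L ≤ Subgroup.normalizer (N : Set G) →
    P ≤ Subgroup.normalizer (N : Set G) → ∀ c ∈ L, c ∈ Subgroup.centralizer (P : Set G) →
    ∃ k ∈ K, ∃ n ∈ N, c = k * n
  hK : ¬ (L ⊓ Subgroup.centralizer (P : Set G) ≤ K)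

namespace Cex

variable {p : ℕ} {P L K : Subgroup G}

theorem hsolvP (C : Cex p P L K) : Group.IsSolvable P := solvable_of_prime_card C.hp C.hP

theorem hcopP (C : Cex p P L K) : (Nat.card P).Coprime (Nat.card L) := by
  rw [C.hP]; exact C.hcop.symm

theorem hcopP_le [Finite G] (C : Cex p P L K) {L' : Subgroup G} (h : L' ≤ L) :
    (Nat.card P).Coprime (Nat.card L') :=
  Nat.Coprime.coprime_dvd_right (Subgroup.card_dvd_of_le h) C.hcopP

theorem hcop_le [Finite G] (C : Cex p P L K) {L' : Subgroup G} (h : L' ≤ L) :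
    (Nat.card L').Coprime p := by
  have := C.hcopP_le h
  rw [C.hP] at this
  exact this.symm

theorem hL (C : Cex p P L K) : L ≠ ⊥ := by
  intro h
  apply C.hK
  rw [h]
  intro x hx
  have : x = 1 := by simpa using (Subgroup.mem_inf.mp hx).1
  rw [this]; exact K.one_mem

/-- No nontrivial `P`-invariant normal subgroup of `L` has its fixed points in `K`. -/
theorem F1 (C : Cex p P L K) (N : Subgroup G) (hNL : N ≤ L) (hN : N ≠ ⊥)
    (hLN : L ≤ Subgroup.normalizer (N : Set G)) (hPN : P ≤ Subgroup.normalizer (N : Set G)) :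
    ¬ (N ⊓ Subgroup.centralizer (P : Set G) ≤ K) := by
  intro h
  apply C.hK
  intro c hc
  obtain ⟨hcL, hcC⟩ := Subgroup.mem_inf.mp hc
  obtain ⟨k, hk, n, hn, rfl⟩ := C.T3 N hNL hN hLN hPN c hcL hcC
  have hkC : k ∈ Subgroup.centralizer (P : Set G) := C.hKC hk
  have hnC : n ∈ Subgroup.centralizer (P : Set G) := by
    have : n = k⁻¹ * (k * n) := by group
    rw [this]
    exact Subgroup.mul_mem _ (Subgroup.inv_mem _ hkC) hcC
  exact K.mul_mem hk (h (Subgroup.mem_inf.mpr ⟨hn, hnC⟩))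

theorem F3 (C : Cex p P L K) {h : G} (hh : h ∈ L) : cmh P h ≠ L := by
  intro e
  apply C.hK
  rw [← e]
  exact C.hcmh h hh

/-- No nontrivial `P`-invariant normal subgroup of `L` lies in `[L', P]`, `L'` proper. -/
theorem F4 (C : Cex p P L K) (N : Subgroup G) (hNL : N ≤ L) (hN : N ≠ ⊥)
    (hLN : L ≤ Subgroup.normalizer (N : Set G)) (hPN : P ≤ Subgroup.normalizer (N : Set G))
    (L' : Subgroup G) (hL' : L' ≤ L) (hPL' : P ≤ Subgroup.normalizer (L' : Set G))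
    (hne : L' ≠ L) : ¬ (N ≤ ⁅L', P⁆) := by
  intro h
  exact C.F1 N hNL hN hLN hPN ((inf_le_inf_right _ h).trans (C.T2 L' hL' hPL' hne))

theorem perfect [Finite G] (C : Cex p P L K) {h : G} (hh : h ∈ L) :
    ⁅cmh P h, P⁆ = cmh P h :=
  cmh_perfect C.hP h (C.hcop_le (cmh_le_of_mem C.hPL hh))

/-- Variant of `F4` for subgroups of some `[h, P]`. -/
theorem F4h [Finite G] (C : Cex p P L K) (N : Subgroup G) (hN : N ≠ ⊥)
    (hLN : L ≤ Subgroup.normalizer (N : Set G)) (hPN : P ≤ Subgroup.normalizer (N : Set G))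
    {h : G} (hh : h ∈ L) : ¬ (N ≤ cmh P h) := by
  intro hle
  have h1 : cmh P h ≤ L := cmh_le_of_mem C.hPL hh
  refine C.F4 N (hle.trans h1) hN hLN hPN (cmh P h) h1 (cmh_normalized P h) (C.F3 hh) ?_
  rw [C.perfect hh]
  exact hle

end Cex

end Cfsg.Agent.Lib.Helper73.Flv
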