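import Mathlib
import Cfsg.Agent.Lib.Helper73.FlvBase

set_option autoImplicit false

/-!
The minimal counterexample is not a `q`-group: class two reduction and polarization.
-/

namespace Cfsg.Agent.Lib.Helper73.Flv

open scoped commutatorElement
open Cfsg.Agent.Lib.Helper1

universe u

variable {G : Type u} [Group G]

/-! ### Commutator identities with central values -/

theorem conj_of_comm {z g : G} (h : g * z = z * g) : g * z * g⁻¹ = z := by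
  rw [h]; group

theorem cr_mul {n g g' : G} (h : g * ⁅n, g'⁆ = ⁅n, g'⁆ * g) :
    ⁅n, g * g'⁆ = ⁅n, g⁆ * ⁅n, g'⁆ := by
  calc ⁅n, g * g'⁆ = ⁅n, g⁆ * (g * ⁅n, g'⁆) * g⁻¹ := by
        simp only [commutatorElement_def]; group
    _ = ⁅n, g⁆ * (⁅n, g'⁆ * g) * g⁻¹ := by rw [h]
    _ = ⁅n, g⁆ * ⁅n, g'⁆ := by group

theorem inv_comm_of_comm {z g : G} (h : g * z = z * g) : z⁻¹ * g = g * z⁻¹ := by
  calc z⁻¹ * g = z⁻¹ * (g * z) * z⁻¹ := by group
    _ = z⁻¹ * (z * g) * z⁻¹ := by rw [h]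
    _ = g * z⁻¹ := by group

theorem cr_inv {n g : G} (h : g * ⁅n, g⁆ = ⁅n, g⁆ * g) : ⁅n, g⁻¹⁆ = ⁅n, g⁆⁻¹ := by
  have h' := inv_comm_of_comm h
  calc ⁅n, g⁻¹⁆ = g⁻¹ * (⁅n, g⁆⁻¹ * g) := by
        simp only [commutatorElement_def]; group
    _ = g⁻¹ * (g * ⁅n, g⁆⁻¹) := by rw [h']
    _ = ⁅n, g⁆⁻¹ := by group

theorem cl_mul {a b c : G} (h1 : a * ⁅b, c⁆ = ⁅b, c⁆ * a)
    (h2 : ⁅a, c⁆ * ⁅b, c⁆ = ⁅b, c⁆ * ⁅a, c⁆) : ⁅a * b, c⁆ = ⁅a, c⁆ * ⁅b, c⁆ := by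
  calc ⁅a * b, c⁆ = (a * ⁅b, c⁆) * a⁻¹ * ⁅a, c⁆ := by
        simp only [commutatorElement_def]; group
    _ = (⁅b, c⁆ * a) * a⁻¹ * ⁅a, c⁆ := by rw [h1]
    _ = ⁅b, c⁆ * ⁅a, c⁆ := by group
    _ = ⁅a, c⁆ * ⁅b, c⁆ := h2.symm

theorem cl_inv {a c : G} (h : a * ⁅a, c⁆ = ⁅a, c⁆ * a) : ⁅a⁻¹, c⁆ = ⁅a, c⁆⁻¹ := by
  have h' := inv_comm_of_comm h
  calc ⁅a⁻¹, c⁆ = a⁻¹ * (⁅a, c⁆⁻¹ * a) := by
        simp only [commutatorElement_def]; group
    _ = a⁻¹ * (a * ⁅a, c⁆⁻¹) := by rw [h']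
    _ = ⁅a, c⁆⁻¹ := by group

theorem comm_elem_mem {L : Subgroup G} {a b : G} (ha : a ∈ L) (hb : b ∈ L) : ⁅a, b⁆ ∈ L := by
  rw [commutatorElement_def]
  exact L.mul_mem (L.mul_mem (L.mul_mem ha hb) (L.inv_mem ha)) (L.inv_mem hb)

theorem comm_elem_eq_one_iff {a b : G} : ⁅a, b⁆ = 1 ↔ a * b = b * a := by
  rw [commutatorElement_def]
  constructor
  · intro h
    calc a * b = (a * b * a⁻¹ * b⁻¹) * b * a := by group
      _ = b * a := by rw [h]; group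
  · intro h
    calc a * b * a⁻¹ * b⁻¹ = (a * b) * a⁻¹ * b⁻¹ := by group
      _ = (b * a) * a⁻¹ * b⁻¹ := by rw [h]
      _ = 1 := by group

theorem le_normalizer_of_le_centralizer {N L : Subgroup G}
    (h : N ≤ Subgroup.centralizer (L : Set G)) : L ≤ Subgroup.normalizer (N : Set G) := by
  rw [Subgroup.le_normalizer_iff]
  intro l hl n hn
  have h1 : l * n = n * l := Subgroup.mem_centralizer_iff.mp (h hn) l hl
  rw [conj_of_comm h1]
  exact hn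

/-! ### The centre and the second centre of `L` -/

/-- The centre of `L`, as a subgroup of the ambient group. -/
def zc (L : Subgroup G) : Subgroup G := L ⊓ Subgroup.centralizer (L : Set G)

theorem zc_comm {L : Subgroup G} {z g : G} (hz : z ∈ zc L) (hg : g ∈ L) : g * z = z * g :=
  Subgroup.mem_centralizer_iff.mp (Subgroup.mem_inf.mp hz).2 g hg

theorem zc_le (L : Subgroup G) : zc L ≤ L := inf_le_left

theorem zc_normal (L : Subgroup G) : L ≤ Subgroup.normalizer (zc L : Set G) :=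
  le_normalizer_of_le_centralizer inf_le_right

theorem zc_normalized {P L : Subgroup G} (hPL : P ≤ Subgroup.normalizer (L : Set G)) :
    P ≤ Subgroup.normalizer (zc L : Set G) :=
  le_normalizer_inf hPL (le_normalizer_centralizer hPL)

theorem zc_conj_mem {P L : Subgroup G} (hPL : P ≤ Subgroup.normalizer (L : Set G)) {a z : G}
    (ha : a ∈ P) (hz : z ∈ zc L) : a * z * a⁻¹ ∈ zc L :=
  (Subgroup.mem_normalizer_iff.mp (zc_normalized hPL ha) z).mp hz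

/-- The second centre of `L`, as a subgroup of the ambient group. -/
def zc2 (L : Subgroup G) : Subgroup G where
  carrier := {n | n ∈ L ∧ ∀ h ∈ L, ⁅n, h⁆ ∈ zc L}
  one_mem' := by
    refine ⟨L.one_mem, fun h _ => ?_⟩
    have : ⁅(1 : G), h⁆ = 1 := by simp [commutatorElement_def]
    rw [this]; exact (zc L).one_mem
  mul_mem' := by
    rintro n n' ⟨hn, hn2⟩ ⟨hn', hn2'⟩
    refine ⟨L.mul_mem hn hn', fun h hh => ?_⟩
    have e : ⁅n * n', h⁆ = n * ⁅n', h⁆ * n⁻¹ * ⁅n, h⁆ := by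
      simp only [commutatorElement_def]; group
    rw [e]
    exact (zc L).mul_mem ((Subgroup.mem_normalizer_iff.mp (zc_normal L hn) _).mp (hn2' h hh))
      (hn2 h hh)
  inv_mem' := by
    rintro n ⟨hn, hn2⟩
    refine ⟨L.inv_mem hn, fun h hh => ?_⟩
    have e : ⁅n⁻¹, h⁆ = n⁻¹ * ⁅n, h⁆⁻¹ * (n⁻¹)⁻¹ := by
      simp only [commutatorElement_def]; group
    rw [e]
    exact (Subgroup.mem_normalizer_iff.mp (zc_normal L (L.inv_mem hn)) _).mp
      ((zc L).inv_mem (hn2 h hh))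

theorem mem_zc2 {L : Subgroup G} {n : G} : n ∈ zc2 L ↔ n ∈ L ∧ ∀ h ∈ L, ⁅n, h⁆ ∈ zc L :=
  Iff.rfl

theorem zc2_le (L : Subgroup G) : zc2 L ≤ L := fun _ hn => hn.1

theorem zc_le_zc2 (L : Subgroup G) : zc L ≤ zc2 L := by
  intro z hz
  refine ⟨zc_le L hz, fun h hh => ?_⟩
  have h1 : h * z = z * h := zc_comm hz hh
  have : ⁅z, h⁆ = 1 := comm_elem_eq_one_iff.mpr h1.symm
  rw [this]; exact (zc L).one_mem

theorem zc2_normalized {H L : Subgroup G} (hHL : H ≤ Subgroup.normalizer (L : Set G)) :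
    H ≤ Subgroup.normalizer (zc2 L : Set G) := by
  rw [Subgroup.le_normalizer_iff]
  rintro a ha n ⟨hn, hn2⟩
  have hainv : a⁻¹ ∈ Subgroup.normalizer (L : Set G) := Subgroup.inv_mem _ (hHL ha)
  refine ⟨(Subgroup.mem_normalizer_iff.mp (hHL ha) n).mp hn, fun h hh => ?_⟩
  have h1 : a⁻¹ * h * a ∈ L := by
    have := (Subgroup.mem_normalizer_iff.mp hainv h).mp hh
    simpa using this
  have e : ⁅a * n * a⁻¹, h⁆ = a * ⁅n, a⁻¹ * h * a⁆ * a⁻¹ := by
    simp only [commutatorElement_def]; group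
  rw [e]
  have hz : H ≤ Subgroup.normalizer (zc L : Set G) :=
    le_normalizer_inf hHL (le_normalizer_centralizer hHL)
  exact (Subgroup.mem_normalizer_iff.mp (hz ha) _).mp (hn2 _ h1)

/-- In a non-abelian `q`-group the second centre is larger than the centre. -/
theorem exists_mem_zc2_not_mem_zc [Finite G] {q : ℕ} [Fact q.Prime] {L : Subgroup G}
    (hq : IsPGroup q L) (hnab : ¬ L ≤ Subgroup.centralizer (L : Set G)) :
    ∃ n ∈ zc2 L, n ∉ zc L := by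
  classical
  have hnt : Nontrivial (↥L ⧸ Subgroup.center ↥L) := by
    by_contra hcon
    rw [not_nontrivial_iff_subsingleton] at hcon
    apply hnab
    intro a ha
    rw [Subgroup.mem_centralizer_iff]
    intro b hb
    have h1 : ((⟨a, ha⟩ : L) : ↥L ⧸ Subgroup.center ↥L) = ((1 : L) : ↥L ⧸ Subgroup.center ↥L) :=
      Subsingleton.elim _ _
    have h2 : (⟨a, ha⟩ : L) ∈ Subgroup.center ↥L := by
      rw [QuotientGroup.eq] at h1
      simpa using (Subgroup.center ↥L).inv_mem h1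
    have h3 := Subgroup.mem_center_iff.mp h2 ⟨b, hb⟩
    exact congrArg Subtype.val h3
  have hqQ : IsPGroup q (↥L ⧸ Subgroup.center ↥L) := hq.to_quotient _
  have hcn : Nontrivial (Subgroup.center (↥L ⧸ Subgroup.center ↥L)) := hqQ.center_nontrivial
  obtain ⟨⟨nb, hnb⟩, hne⟩ := exists_ne (1 : Subgroup.center (↥L ⧸ Subgroup.center ↥L))
  obtain ⟨n, rfl⟩ := QuotientGroup.mk_surjective nb
  have hn1 : n ∉ Subgroup.center ↥L := by
    intro h
    apply hne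
    apply Subtype.ext
    exact (QuotientGroup.eq_one_iff n).mpr h
  have hcen : ∀ z : L, z ∈ Subgroup.center ↥L → (z : G) ∈ zc L := by
    intro z hz
    refine Subgroup.mem_inf.mpr ⟨z.2, ?_⟩
    rw [Subgroup.mem_centralizer_iff]
    intro g hg
    exact congrArg Subtype.val (Subgroup.mem_center_iff.mp hz ⟨g, hg⟩)
  refine ⟨(n : G), ⟨n.2, fun h hh => ?_⟩, ?_⟩
  · have h1 : ((⁅n, (⟨h, hh⟩ : L)⁆ : L) : ↥L ⧸ Subgroup.center ↥L) = 1 := by
      have h2 := Subgroup.mem_center_iff.mp hnb ((⟨h, hh⟩ : L) : ↥L ⧸ Subgroup.center ↥L)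
      have h3 : ((⁅n, (⟨h, hh⟩ : L)⁆ : L) : ↥L ⧸ Subgroup.center ↥L)
          = ⁅(n : ↥L ⧸ Subgroup.center ↥L), ((⟨h, hh⟩ : L) : ↥L ⧸ Subgroup.center ↥L)⁆ := by
        simp [commutatorElement_def]
      rw [h3]
      exact comm_elem_eq_one_iff.mpr h2.symm
    have h4 : (⁅n, (⟨h, hh⟩ : L)⁆ : L) ∈ Subgroup.center ↥L := (QuotientGroup.eq_one_iff _).mp h1
    have h5 := hcen _ h4
    simpa [commutatorElement_def] using h5
  · intro hz
    apply hn1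
    rw [Subgroup.mem_center_iff]
    intro g
    apply Subtype.ext
    exact zc_comm hz g.2

namespace Cex

variable {p : ℕ} {P L K : Subgroup G}

/-- The centre of `L` is centralized by `P`. -/
theorem zc_le_centralizer [Finite G] (C : Cex p P L K) :
    zc L ≤ Subgroup.centralizer (P : Set G) := by
  have hZP : P ≤ Subgroup.normalizer (zc L : Set G) := zc_normalized C.hPL
  have hab : ∀ a ∈ zc L, ∀ b ∈ zc L, a * b = b * a :=
    fun a ha b hb => zc_comm hb (zc_le L ha)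
  haveI : IsMulCommutative (zc L) := isMulCommutative_of_forall hab
  have h0 := abelian_centralizer_inf_commutator P (zc L) hZP (C.hcopP_le (zc_le L))
  by_contra hcon
  have hW : ⁅zc L, P⁆ ≠ ⊥ :=
    fun h => hcon (Subgroup.commutator_eq_bot_iff_le_centralizer.mp h)
  have hWZ : ⁅zc L, P⁆ ≤ zc L := commutator_le_of_le_normalizer hZP
  refine C.F1 ⁅zc L, P⁆ (hWZ.trans (zc_le L)) hW
    (le_normalizer_of_le_centralizer (hWZ.trans inf_le_right))
    (le_normalizer_commutator hZP Subgroup.le_normalizer) ?_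
  intro x hx
  have h1 : x ∈ (zc L ⊓ Subgroup.centralizer (P : Set G)) ⊓ ⁅zc L, P⁆ :=
    Subgroup.mem_inf.mpr ⟨Subgroup.mem_inf.mpr ⟨hWZ (Subgroup.mem_inf.mp hx).1,
      (Subgroup.mem_inf.mp hx).2⟩, (Subgroup.mem_inf.mp hx).1⟩
  rw [h0] at h1
  rw [Subgroup.mem_bot.mp h1]; exact K.one_mem

theorem not_abelian [Finite G] (C : Cex p P L K) :
    ¬ L ≤ Subgroup.centralizer (L : Set G) := by
  intro h
  have h1 : L ≤ zc L := fun x hx => Subgroup.mem_inf.mpr ⟨hx, h hx⟩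
  have h2 : L ≤ Subgroup.centralizer (P : Set G) := h1.trans C.zc_le_centralizer
  have h3 : ⁅L, P⁆ = ⊥ := Subgroup.commutator_eq_bot_iff_le_centralizer.mpr h2
  exact C.hL (by rw [← C.hLL, h3])

theorem comm_zc2_ne_bot [Finite G] (C : Cex p P L K) {n : G} (hn : n ∈ zc2 L)
    (hnz : n ∉ zc L) : ⁅zc2 L, P⁆ ≠ ⊥ := by
  intro h
  have hZ2C : zc2 L ≤ Subgroup.centralizer (P : Set G) :=
    Subgroup.commutator_eq_bot_iff_le_centralizer.mp h
  apply hnz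
  refine Subgroup.mem_inf.mpr ⟨hn.1, ?_⟩
  have hL : ∀ l ∈ L, n * l = l * n := by
    have hL' : L ≤ Subgroup.centralizer ({n} : Set G) := by
      apply le_of_eq_of_le C.hLL.symm
      apply commutator_le_of_cmh
      intro h hh
      apply cmh_le
      intro a ha
      rw [Subgroup.mem_centralizer_iff]
      intro m hm
      rw [Set.mem_singleton_iff] at hm
      rw [hm]
      have hnC := hZ2C hn
      have han : a * n = n * a := Subgroup.mem_centralizer_iff.mp hnC a ha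
      have hz : ⁅n, h⁆ ∈ zc L := hn.2 h hh
      have hzC : ⁅n, h⁆ ∈ Subgroup.centralizer (P : Set G) := C.zc_le_centralizer hz
      have haz : a * ⁅n, h⁆ = ⁅n, h⁆ * a := Subgroup.mem_centralizer_iff.mp hzC a ha
      have hhz : h * ⁅n, h⁆ = ⁅n, h⁆ * h := zc_comm hz hh
      have e1 : ⁅n, a * h * a⁻¹⁆ = ⁅n, h⁆ := by
        have e0 : ⁅n, a * h * a⁻¹⁆ = a * ⁅a⁻¹ * (n * a), h⁆ * a⁻¹ := by
          simp only [commutatorElement_def]; group
        have h5 : a⁻¹ * (n * a) = n := by rw [← han]; group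
        rw [e0, h5, conj_of_comm haz]
      have e2 : ⁅n, h⁻¹⁆ = ⁅n, h⁆⁻¹ := cr_inv hhz
      have e3 : ⁅n, h⁻¹ * (a * h * a⁻¹)⁆ = ⁅n, h⁻¹⁆ * ⁅n, a * h * a⁻¹⁆ := by
        apply cr_mul
        rw [e1]
        exact zc_comm hz (L.inv_mem hh)
      have e4 : ⁅n, h⁻¹ * (a * h * a⁻¹)⁆ = 1 := by rw [e3, e1, e2]; group
      have e5 := comm_elem_eq_one_iff.mp e4
      simpa [mul_assoc] using e5
    intro l hl
    have h1 := Subgroup.mem_centralizer_iff.mp (hL' hl) n (Set.mem_singleton n)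
    exact h1
  rw [Subgroup.mem_centralizer_iff]
  intro l hl
  exact (hL l hl).symm

/-- Reduction to class two: `L` equals its second centre. -/
theorem class_two [Finite G] (C : Cex p P L K) {q : ℕ} [Fact q.Prime] (hq : IsPGroup q L) :
    L ≤ zc2 L := by
  obtain ⟨n, hn, hnz⟩ := exists_mem_zc2_not_mem_zc hq C.not_abelian
  have hN1ne : ⁅zc2 L, P⁆ ≠ ⊥ := C.comm_zc2_ne_bot hn hnz
  have hZ2P : P ≤ Subgroup.normalizer (zc2 L : Set G) := zc2_normalized C.hPL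
  have hN1Z2 : ⁅zc2 L, P⁆ ≤ zc2 L := commutator_le_of_le_normalizer hZ2P
  have hN1L : ⁅zc2 L, P⁆ ≤ L := hN1Z2.trans (zc2_le L)
  have hN1P : P ≤ Subgroup.normalizer ((⁅zc2 L, P⁆ : Subgroup G) : Set G) :=
    le_normalizer_commutator hZ2P Subgroup.le_normalizer
  have hN1perf : ⁅⁅zc2 L, P⁆, P⁆ = ⁅zc2 L, P⁆ :=
    coprime_commutator_commutator P (zc2 L) hZ2P (C.hcopP_le (zc2_le L)) (Or.inl C.hsolvP)
  by_cases hN1 : ⁅zc2 L, P⁆ = L
  · intro x hx
    exact hN1Z2 (by rw [hN1]; exact hx)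
  -- `N₁ = [Z₂, P]` is proper
  have hN1Z : ⁅zc2 L, P⁆ ⊓ zc L = ⊥ := by
    by_contra hne
    exact C.F4 (⁅zc2 L, P⁆ ⊓ zc L) (inf_le_left.trans hN1L) hne
      (le_normalizer_of_le_centralizer (inf_le_right.trans inf_le_right))
      (le_normalizer_inf hN1P (zc_normalized C.hPL)) ⁅zc2 L, P⁆ hN1L hN1P hN1
      (by rw [hN1perf]; exact inf_le_left)
  have hN1ab : ∀ a ∈ ⁅zc2 L, P⁆, ∀ b ∈ ⁅zc2 L, P⁆, a * b = b * a := by
    intro a ha b hb
    have h1 : ⁅a, b⁆ ∈ ⁅zc2 L, P⁆ ⊓ zc L :=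
      Subgroup.mem_inf.mpr ⟨comm_elem_mem ha hb, (hN1Z2 ha).2 b (hN1L hb)⟩
    rw [hN1Z, Subgroup.mem_bot] at h1
    exact comm_elem_eq_one_iff.mp h1
  have hc : ∀ h ∈ L, (zc L ⊔ ⁅zc2 L, P⁆) ⊔ cmh P h ≠ L →
      cmh P h ≤ Subgroup.centralizer ((⁅zc2 L, P⁆ : Subgroup G) : Set G) := by
    intro h hh hne
    have hDL : cmh P h ≤ L := cmh_le_of_mem C.hPL hh
    have hL'L : (zc L ⊔ ⁅zc2 L, P⁆) ⊔ cmh P h ≤ L := sup_le (sup_le (zc_le L) hN1L) hDL
    have hL'P : P ≤ Subgroup.normalizer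
        (((zc L ⊔ ⁅zc2 L, P⁆) ⊔ cmh P h : Subgroup G) : Set G) :=
      le_normalizer_sup (le_normalizer_sup (zc_normalized C.hPL) hN1P) (cmh_normalized P h)
    have hR1 : ⁅⁅zc2 L, P⁆, cmh P h⁆ ≤ zc L := by
      rw [Subgroup.commutator_le]
      intro a ha b hb
      exact (hN1Z2 ha).2 b (hDL hb)
    have hR2 : ⁅⁅zc2 L, P⁆, cmh P h⁆ ≤ ⁅(zc L ⊔ ⁅zc2 L, P⁆) ⊔ cmh P h, P⁆ := by
      have h1 : ⁅zc2 L, P⁆ ≤ ⁅(zc L ⊔ ⁅zc2 L, P⁆) ⊔ cmh P h, P⁆ := by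
        calc ⁅zc2 L, P⁆ = ⁅⁅zc2 L, P⁆, P⁆ := hN1perf.symm
          _ ≤ _ := Subgroup.commutator_mono (le_sup_of_le_left le_sup_right) le_rfl
      have h2 : cmh P h ≤ ⁅(zc L ⊔ ⁅zc2 L, P⁆) ⊔ cmh P h, P⁆ := by
        calc cmh P h = ⁅cmh P h, P⁆ := (C.perfect hh).symm
          _ ≤ _ := Subgroup.commutator_mono le_sup_right le_rfl
      rw [Subgroup.commutator_le]
      intro a ha b hb
      exact comm_elem_mem (h1 ha) (h2 hb)
    have hR : ⁅⁅zc2 L, P⁆, cmh P h⁆ = ⊥ := by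
      by_contra hRne
      exact C.F4 ⁅⁅zc2 L, P⁆, cmh P h⁆ (hR1.trans (zc_le L)) hRne
        (le_normalizer_of_le_centralizer (hR1.trans inf_le_right))
        (le_normalizer_commutator hN1P (cmh_normalized P h)) _ hL'L hL'P hne hR2
    exact Subgroup.le_centralizer_iff.mp (Subgroup.commutator_eq_bot_iff_le_centralizer.mp hR)
  obtain ⟨h₀, hh₀, hsup⟩ : ∃ h₀ ∈ L, (zc L ⊔ ⁅zc2 L, P⁆) ⊔ cmh P h₀ = L := by
    by_contra hcon
    have hall : ∀ h ∈ L, cmh P h ≤ Subgroup.centralizer ((⁅zc2 L, P⁆ : Subgroup G) : Set G) :=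
      fun h hh => hc h hh (fun e => hcon ⟨h, hh, e⟩)
    have h1 : L ≤ Subgroup.centralizer ((⁅zc2 L, P⁆ : Subgroup G) : Set G) :=
      le_of_eq_of_le C.hLL.symm (commutator_le_of_cmh hall)
    have h2 : ⁅zc2 L, P⁆ ≤ zc L :=
      fun x hx => Subgroup.mem_inf.mpr ⟨hN1L hx, (Subgroup.le_centralizer_iff.mp h1) hx⟩
    have h3 : ⁅zc2 L, P⁆ ≤ ⁅zc2 L, P⁆ ⊓ zc L := le_inf le_rfl h2
    rw [hN1Z] at h3
    exact hN1ne (le_bot_iff.mp h3)
  have hL0L : cmh P h₀ ≤ L := cmh_le_of_mem C.hPL hh₀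
  have hNL : zc L ⊔ ⁅zc2 L, P⁆ ≤ L := sup_le (zc_le L) hN1L
  have hNZ2 : zc L ⊔ ⁅zc2 L, P⁆ ≤ zc2 L := sup_le (zc_le_zc2 L) hN1Z2
  have hNab : zc L ⊔ ⁅zc2 L, P⁆ ≤
      Subgroup.centralizer ((zc L ⊔ ⁅zc2 L, P⁆ : Subgroup G) : Set G) := by
    apply sup_le
    · exact inf_le_right.trans (Subgroup.centralizer_le hNL)
    · apply Subgroup.le_centralizer_iff.mp
      apply sup_le
      · exact inf_le_right.trans (Subgroup.centralizer_le hN1L)
      · intro a ha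
        rw [Subgroup.mem_centralizer_iff]
        intro b hb
        exact hN1ab b hb a ha
  have hLN : L ≤ Subgroup.normalizer ((zc L ⊔ ⁅zc2 L, P⁆ : Subgroup G) : Set G) := by
    rw [Subgroup.sup_eq_closure, Subgroup.le_normalizer_closure_iff]
    rintro l hl g (hg | hg)
    · exact Subgroup.subset_closure
        (Or.inl ((Subgroup.mem_normalizer_iff.mp (zc_normal L hl) g).mp hg))
    · have e : l * g * l⁻¹ = ⁅l, g⁆ * g := by simp only [commutatorElement_def]; group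
      rw [e]
      refine Subgroup.mul_mem _ (Subgroup.subset_closure (Or.inl ?_))
        (Subgroup.subset_closure (Or.inr hg))
      have e2 : ⁅l, g⁆ = ⁅g, l⁆⁻¹ := (commutatorElement_inv g l).symm
      rw [e2]
      exact (zc L).inv_mem ((hN1Z2 hg).2 l hl)
  have hNP : P ≤ Subgroup.normalizer ((zc L ⊔ ⁅zc2 L, P⁆ : Subgroup G) : Set G) :=
    le_normalizer_sup (zc_normalized C.hPL) hN1P
  have hL0N : cmh P h₀ ⊓ (zc L ⊔ ⁅zc2 L, P⁆) = ⊥ := by
    by_contra hne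
    refine C.F4h _ hne ?_ ?_ hh₀ inf_le_left
    · apply le_of_eq_of_le hsup.symm
      apply sup_le
      · exact le_normalizer_of_le_centralizer (inf_le_right.trans hNab)
      · exact le_normalizer_inf Subgroup.le_normalizer (hL0L.trans hLN)
    · exact le_normalizer_inf (cmh_normalized P h₀) hNP
  have hC0 : cmh P h₀ ⊓ Subgroup.centralizer ((zc L ⊔ ⁅zc2 L, P⁆ : Subgroup G) : Set G)
      = ⊥ := by
    by_contra hne
    refine C.F4h _ hne ?_ ?_ hh₀ inf_le_left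
    · apply le_of_eq_of_le hsup.symm
      apply sup_le
      · exact le_normalizer_of_le_centralizer inf_le_right
      · exact le_normalizer_inf Subgroup.le_normalizer
          (le_normalizer_centralizer (hL0L.trans hLN))
    · exact le_normalizer_inf (cmh_normalized P h₀) (le_normalizer_centralizer hNP)
  have hL0ab : ∀ l ∈ cmh P h₀, ∀ l' ∈ cmh P h₀, l * l' = l' * l := by
    intro l hl l' hl'
    have hlL := hL0L hl
    have hl'L := hL0L hl'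
    have h1 : ⁅l, l'⁆ ∈ cmh P h₀ ⊓
        Subgroup.centralizer ((zc L ⊔ ⁅zc2 L, P⁆ : Subgroup G) : Set G) := by
      refine Subgroup.mem_inf.mpr ⟨comm_elem_mem hl hl', ?_⟩
      rw [Subgroup.mem_centralizer_iff]
      intro m hm
      have hm2 := hNZ2 hm
      have z1 := hm2.2 l hlL
      have z2 := hm2.2 l' hl'L
      have key : ⁅m, ⁅l, l'⁆⁆ = 1 := by
        rw [commutatorElement_def l l']
        have a1 : ⁅m, l'⁻¹⁆ = ⁅m, l'⁆⁻¹ := cr_inv (zc_comm z2 hl'L)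
        have a2 : ⁅m, l⁻¹⁆ = ⁅m, l⁆⁻¹ := cr_inv (zc_comm z1 hlL)
        have b1 : ⁅m, l * l' * l⁻¹ * l'⁻¹⁆ = ⁅m, l * l' * l⁻¹⁆ * ⁅m, l'⁻¹⁆ :=
          cr_mul (by
            rw [a1]
            exact zc_comm ((zc L).inv_mem z2)
              (L.mul_mem (L.mul_mem hlL hl'L) (L.inv_mem hlL)))
        have b2 : ⁅m, l * l' * l⁻¹⁆ = ⁅m, l * l'⁆ * ⁅m, l⁻¹⁆ :=
          cr_mul (by
            rw [a2]
            exact zc_comm ((zc L).inv_mem z1) (L.mul_mem hlL hl'L))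
        have b3 : ⁅m, l * l'⁆ = ⁅m, l⁆ * ⁅m, l'⁆ := cr_mul (zc_comm z2 hlL)
        have c1 : ⁅m, l⁆ * ⁅m, l'⁆ = ⁅m, l'⁆ * ⁅m, l⁆ := zc_comm z2 (zc_le L z1)
        rw [b1, b2, b3, a1, a2, c1]
        group
      exact comm_elem_eq_one_iff.mp key
    rw [hC0, Subgroup.mem_bot] at h1
    exact comm_elem_eq_one_iff.mp h1
  have hL0Z2 : cmh P h₀ ≤ zc2 L := by
    intro l hl
    refine ⟨hL0L hl, fun g hg => ?_⟩
    have hg' : g ∈ (((zc L ⊔ ⁅zc2 L, P⁆) ⊔ cmh P h₀ : Subgroup G) : Set G) := by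
      rw [hsup]; exact hg
    rw [Subgroup.coe_mul_of_right_le_normalizer_left _ _ (hL0L.trans hLN)] at hg'
    obtain ⟨m, hm, l', hl', rfl⟩ := Set.mem_mul.mp hg'
    have e : ⁅l, m * l'⁆ = ⁅l, m⁆ * (m * ⁅l, l'⁆ * m⁻¹) := by
      simp only [commutatorElement_def]; group
    have e2 : ⁅l, l'⁆ = 1 := comm_elem_eq_one_iff.mpr (hL0ab l hl l' hl')
    have e3 : ⁅l, m⁆ * (m * 1 * m⁻¹) = ⁅m, l⁆⁻¹ := by
      rw [commutatorElement_inv]; group
    rw [e, e2, e3]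
    exact (zc L).inv_mem ((hNZ2 hm).2 l (hL0L hl))
  exact le_of_eq_of_le hsup.symm (sup_le hNZ2 hL0Z2)

/-- Polarization: a class two minimal counterexample does not exist (uses `p` odd). -/
theorem false_of_class_two [Finite G] (C : Cex p P L K) (h2 : L ≤ zc2 L) : False := by
  have hcen : ∀ a ∈ L, ∀ b ∈ L, ⁅a, b⁆ ∈ zc L := fun a ha b hb => (h2 ha).2 b hb
  have habD : ∀ g ∈ L, ∀ c ∈ cmh P g, ∀ c' ∈ cmh P g, c * c' = c' * c := by
    intro g hg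
    have hDL := cmh_le_of_mem C.hPL hg
    have hR : ⁅cmh P g, cmh P g⁆ = ⊥ := by
      by_contra hne
      refine C.F4h ⁅cmh P g, cmh P g⁆ hne (le_normalizer_of_le_centralizer ?_)
        (le_normalizer_commutator (cmh_normalized P g) (cmh_normalized P g)) hg
        (commutator_le_of_le_normalizer Subgroup.le_normalizer)
      exact (Subgroup.commutator_le.mpr
        (fun a ha b hb => hcen a (hDL ha) b (hDL hb))).trans inf_le_right
    exact abelian_of_commutator_eq_bot hR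
  obtain ⟨x, hxP, hgen⟩ : ∃ x ∈ P, ∀ a ∈ P, ∃ k : ℕ, a = x ^ k := by
    haveI : Fact p.Prime := ⟨C.hp⟩
    haveI : IsCyclic ↥P := isCyclic_of_prime_card C.hP
    obtain ⟨g, hg⟩ := IsCyclic.exists_generator (α := ↥P)
    refine ⟨g, g.2, fun a ha => ?_⟩
    have h1 := hg ⟨a, ha⟩
    have h3 : (⟨a, ha⟩ : P) ∈ Submonoid.powers g := mem_powers_iff_mem_zpowers.mpr h1
    obtain ⟨k, hk⟩ := h3
    refine ⟨k, ?_⟩
    have h4 := congrArg Subtype.val hk
    simpa using h4.symm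
  have hxp : x ^ p = 1 := by
    have h1 : (⟨x, hxP⟩ : P) ^ Nat.card P = 1 := pow_card_eq_one'
    rw [C.hP] at h1
    have h3 := congrArg Subtype.val h1
    simpa using h3
  have hconj : ∀ a ∈ P, ∀ g ∈ L, a * g * a⁻¹ ∈ L :=
    fun a ha g hg => (Subgroup.mem_normalizer_iff.mp (C.hPL ha) g).mp hg
  have hfix : ∀ a ∈ P, ∀ z ∈ zc L, a * z * a⁻¹ = z :=
    fun a ha z hz =>
      conj_of_comm (Subgroup.mem_centralizer_iff.mp (C.zc_le_centralizer hz) a ha)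
  have bl : ∀ a ∈ L, ∀ b ∈ L, ∀ c ∈ L, ⁅a * b, c⁆ = ⁅a, c⁆ * ⁅b, c⁆ :=
    fun a ha b hb c hc =>
      cl_mul (zc_comm (hcen b hb c hc) ha) (zc_comm (hcen b hb c hc) (comm_elem_mem ha hc))
  have br : ∀ a ∈ L, ∀ b ∈ L, ∀ c ∈ L, ⁅a, b * c⁆ = ⁅a, b⁆ * ⁅a, c⁆ :=
    fun a ha b hb c hc => cr_mul (zc_comm (hcen a ha c hc) hb)
  have bri : ∀ a ∈ L, ∀ c ∈ L, ⁅a, c⁻¹⁆ = ⁅a, c⁆⁻¹ :=
    fun a ha c hc => cr_inv (zc_comm (hcen a ha c hc) hc)
  have bli : ∀ a ∈ L, ∀ c ∈ L, ⁅a⁻¹, c⁆ = ⁅a, c⁆⁻¹ :=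
    fun a ha c hc => cl_inv (zc_comm (hcen a ha c hc) ha)
  -- `[g, x g x⁻¹] = 1`
  have star : ∀ g ∈ L, ⁅g, x * g * x⁻¹⁆ = 1 := by
    intro g hg
    have hgi : ∀ i : ℕ, x ^ i * g * (x ^ i)⁻¹ ∈ L := fun i => hconj _ (P.pow_mem hxP i) g hg
    have hginv : g⁻¹ ∈ L := L.inv_mem hg
    have hadd : ∀ i k : ℕ, ⁅g, x ^ (i + k) * g * (x ^ (i + k))⁻¹⁆
        = ⁅g, x ^ i * g * (x ^ i)⁻¹⁆ * ⁅g, x ^ k * g * (x ^ k)⁻¹⁆ := by
      intro i k
      have hci : g⁻¹ * x ^ i * g * (x ^ i)⁻¹ ∈ cmh P g := cmh_gen_mem P g (P.pow_mem hxP i)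
      have hcj : g⁻¹ * x ^ (i + k) * g * (x ^ (i + k))⁻¹ ∈ cmh P g :=
        cmh_gen_mem P g (P.pow_mem hxP (i + k))
      have hcomm := habD g hg _ hci _ hcj
      have huL : x ^ i * g * (x ^ i)⁻¹ ∈ L := hgi i
      have hvL : x ^ (i + k) * g * (x ^ (i + k))⁻¹ ∈ L := hgi (i + k)
      have h1 : ⁅g⁻¹ * (x ^ i * g * (x ^ i)⁻¹), g⁻¹ * (x ^ (i + k) * g * (x ^ (i + k))⁻¹)⁆
          = 1 := comm_elem_eq_one_iff.mpr (by simpa [mul_assoc] using hcomm)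
      have e1 := bl _ hginv _ huL _ (L.mul_mem hginv hvL)
      have e2 := br _ hginv _ hginv _ hvL
      have e3 := br _ huL _ hginv _ hvL
      have e4 : ⁅g⁻¹, g⁻¹⁆ = 1 := by simp [commutatorElement_def]
      have e5 := bli _ hg _ hvL
      have e6 := bri _ huL _ hg
      have e7 : ⁅x ^ i * g * (x ^ i)⁻¹, g⁆⁻¹ = ⁅g, x ^ i * g * (x ^ i)⁻¹⁆ :=
        commutatorElement_inv _ _
      have e8 : ⁅x ^ i * g * (x ^ i)⁻¹, x ^ (i + k) * g * (x ^ (i + k))⁻¹⁆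
          = ⁅g, x ^ k * g * (x ^ k)⁻¹⁆ := by
        have id1 : ⁅x ^ i * g * (x ^ i)⁻¹, x ^ (i + k) * g * (x ^ (i + k))⁻¹⁆
            = x ^ i * ⁅g, x ^ k * g * (x ^ k)⁻¹⁆ * (x ^ i)⁻¹ := by
          rw [pow_add]
          simp only [commutatorElement_def]; group
        rw [id1]
        exact hfix _ (P.pow_mem hxP i) _ (hcen g hg _ (hgi k))
      rw [e1, e2, e3, e4, e5, e6, e7, e8, one_mul, inv_mul_eq_one] at h1
      exact h1
    have hpow : ∀ k : ℕ, ⁅g, x ^ k * g * (x ^ k)⁻¹⁆ = ⁅g, x * g * x⁻¹⁆ ^ k := by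
      intro k
      induction k with
      | zero => simp [commutatorElement_def]
      | succ k ih =>
        have h5 := hadd k 1
        rw [pow_one] at h5
        rw [h5, ih, pow_succ]
    have h1 : ⁅g, x * g * x⁻¹⁆ ^ p = 1 := by
      rw [← hpow p, hxp]; simp [commutatorElement_def]
    have hmem : ⁅g, x * g * x⁻¹⁆ ∈ L := comm_elem_mem hg (hconj x hxP g hg)
    have ho1 : orderOf ⁅g, x * g * x⁻¹⁆ ∣ p := orderOf_dvd_of_pow_eq_one h1
    have ho2 : orderOf ⁅g, x * g * x⁻¹⁆ ∣ Nat.card L := by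
      have h4 : orderOf (⟨_, hmem⟩ : L) ∣ Nat.card L := orderOf_dvd_natCard _
      rwa [Subgroup.orderOf_mk] at h4
    have ho3 : orderOf ⁅g, x * g * x⁻¹⁆ = 1 :=
      Nat.Coprime.eq_one_of_dvd (Nat.Coprime.coprime_dvd_left ho2 C.hcop) ho1
    exact orderOf_eq_one_iff.mp ho3
  have pol : ∀ a ∈ L, ∀ b ∈ L, ⁅a, x * b * x⁻¹⁆ = ⁅x * a * x⁻¹, b⁆ := by
    intro a ha b hb
    have hxa := hconj x hxP a ha
    have hxb := hconj x hxP b hb
    have h1 := star (a * b) (L.mul_mem ha hb)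
    have e0 : x * (a * b) * x⁻¹ = (x * a * x⁻¹) * (x * b * x⁻¹) := by group
    rw [e0] at h1
    have e1 := bl _ ha _ hb _ (L.mul_mem hxa hxb)
    have e2 := br _ ha _ hxa _ hxb
    have e3 := br _ hb _ hxa _ hxb
    rw [e1, e2, e3, star a ha, star b hb, one_mul, mul_one] at h1
    have h3 : ⁅a, x * b * x⁻¹⁆ = ⁅b, x * a * x⁻¹⁆⁻¹ := eq_inv_of_mul_eq_one_left h1
    rw [h3, commutatorElement_inv]
  have tstar : ∀ a ∈ L, ∀ b ∈ L, ⁅a, x * (x * b * x⁻¹) * x⁻¹⁆ = ⁅a, b⁆ := by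
    intro a ha b hb
    rw [pol a ha _ (hconj x hxP b hb)]
    have id1 : ⁅x * a * x⁻¹, x * b * x⁻¹⁆ = x * ⁅a, b⁆ * x⁻¹ := by
      simp only [commutatorElement_def]; group
    rw [id1]
    exact hfix x hxP _ (hcen a ha b hb)
  have dcen : ∀ b ∈ L, b⁻¹ * (x * (x * b * x⁻¹) * x⁻¹) ∈ zc L := by
    intro b hb
    have hb2 : x * (x * b * x⁻¹) * x⁻¹ ∈ L := hconj x hxP _ (hconj x hxP b hb)
    refine Subgroup.mem_inf.mpr ⟨L.mul_mem (L.inv_mem hb) hb2, ?_⟩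
    rw [Subgroup.mem_centralizer_iff]
    intro a ha
    apply comm_elem_eq_one_iff.mp
    have e1 := br _ ha _ (L.inv_mem hb) _ hb2
    rw [e1, bri _ ha _ hb, tstar a ha b hb]
    group
  have even : ∀ k : ℕ, ∀ b ∈ L, b⁻¹ * x ^ (2 * k) * b * (x ^ (2 * k))⁻¹ ∈ zc L := by
    intro k
    induction k with
    | zero =>
      intro b hb
      have : b⁻¹ * x ^ (2 * 0) * b * (x ^ (2 * 0))⁻¹ = 1 := by simp
      rw [this]; exact (zc L).one_mem
    | succ k ih =>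
      intro b hb
      have e : b⁻¹ * x ^ (2 * (k + 1)) * b * (x ^ (2 * (k + 1)))⁻¹
          = (b⁻¹ * (x * (x * b * x⁻¹) * x⁻¹)) *
            ((x * x) * (b⁻¹ * x ^ (2 * k) * b * (x ^ (2 * k))⁻¹) * (x * x)⁻¹) := by
        have e0 : x ^ (2 * (k + 1)) = x * x * x ^ (2 * k) := by
          rw [mul_add, pow_add]; group
        rw [e0]
        generalize x ^ (2 * k) = y
        group
      rw [e]
      exact (zc L).mul_mem (dcen b hb) (zc_conj_mem C.hPL (P.mul_mem hxP hxP) (ih b hb))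
  have hle : L ≤ zc L := by
    apply le_of_eq_of_le C.hLL.symm
    apply commutator_le_of_cmh
    intro b hb
    apply cmh_le
    intro a ha
    obtain ⟨i, rfl⟩ := hgen a ha
    have hodd : 2 ∣ p + 1 := by
      rcases C.hp.eq_two_or_odd with h | h
      · exact absurd h C.hp2
      · omega
    obtain ⟨m, hm⟩ := hodd
    have e : x ^ i = x ^ (2 * (i * m)) := by
      have e0 : 2 * (i * m) = i * (p + 1) := by rw [hm]; ring
      rw [e0, mul_add, mul_one, pow_add, mul_comm i p, pow_mul, hxp, one_pow, one_mul]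
    rw [e]
    exact even (i * m) b hb
  exact C.not_abelian (hle.trans inf_le_right)

/-- The minimal counterexample is not a `q`-group. -/
theorem false_of_pgroup [Finite G] (C : Cex p P L K) {q : ℕ} [Fact q.Prime]
    (hq : IsPGroup q L) : False :=
  C.false_of_class_two (C.class_two hq)

end Cex

end Cfsg.Agent.Lib.Helper73.Flv
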