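import Mathlib
import Cfsg.Agent.Lib.Helper73.FlvNil
import Cfsg.Agent.Lib.Helper91.Coprime2
import Cfsg.Agent.S0023

set_option autoImplicit false

/-!
Generation of fixed points (ambient form): the case of a central fixed element, handled with
the transfer homomorphism.
-/

namespace Cfsg.Agent.Lib.Helper73.Flv

open scoped commutatorElement
open Cfsg.Agent.Lib.Helper1

universe u

/-- Transfer: a central element of the commutator subgroup whose order is coprime to the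
index of `Q` lies in the commutator subgroup of `Q`. -/
theorem transfer_central {X : Type*} [Group X] [Finite X] (Q : Subgroup X) (v : X)
    (hvZ : v ∈ Subgroup.center X) (hvc : v ∈ commutator X)
    (hcop : (orderOf v).Coprime Q.index) : v ∈ ⁅Q, Q⁆ := by
  have key : ∀ (k : ℕ) (g₀ : X), g₀⁻¹ * v ^ k * g₀ ∈ Q → g₀⁻¹ * v ^ k * g₀ = v ^ k := by
    intro k g₀ _
    have h1 : g₀ * v ^ k = v ^ k * g₀ :=
      Subgroup.mem_center_iff.mp ((Subgroup.center X).pow_mem hvZ k) g₀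
    rw [mul_assoc, ← h1, inv_mul_cancel_left]
  have h2 := MonoidHom.transfer_eq_pow (Abelianization.of : Q →* Abelianization Q) v key
  have h3 : MonoidHom.transfer (Abelianization.of : Q →* Abelianization Q) v = 1 :=
    MonoidHom.mem_ker.mp (Abelianization.commutator_subset_ker _ hvc)
  rw [h3] at h2
  have h4 : (⟨v ^ Q.index, MonoidHom.transfer_eq_pow_aux v key⟩ : Q) ∈ commutator Q := by
    rw [← Abelianization.ker_of]; exact MonoidHom.mem_ker.mpr h2.symm
  have h5 : v ^ Q.index ∈ ⁅Q, Q⁆ := by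
    rw [← Subgroup.map_subtype_commutator]
    exact ⟨_, h4, rfl⟩
  obtain ⟨m, hm⟩ := exists_pow_eq_self_of_coprime hcop.symm
  rw [← hm]
  exact Subgroup.pow_mem _ h5 m

/-- The transfer lemma for a pair of subgroups `Q ≤ X` of an ambient group. -/
theorem transfer_central_sub {G : Type*} [Group G] [Finite G] (Q X : Subgroup G) (hQX : Q ≤ X)
    (v : G) (hvX : v ∈ X) (hvZ : v ∈ Subgroup.centralizer (X : Set G)) (hvc : v ∈ ⁅X, X⁆)
    (hcop : (orderOf v).Coprime (Q.relIndex X)) : v ∈ ⁅Q, Q⁆ := by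
  have h1 : (⟨v, hvX⟩ : X) ∈ ⁅Q.subgroupOf X, Q.subgroupOf X⁆ := by
    apply transfer_central (Q.subgroupOf X) ⟨v, hvX⟩
    · rw [Subgroup.mem_center_iff]
      intro g
      apply Subtype.ext
      exact Subgroup.mem_centralizer_iff.mp hvZ g g.2
    · rw [← Subgroup.map_subtype_commutator] at hvc
      obtain ⟨y, hy, hyv⟩ := hvc
      have : y = ⟨v, hvX⟩ := Subtype.ext hyv
      rw [← this]; exact hy
    · rw [Subgroup.orderOf_mk]; exact hcop
  have h2 : v ∈ (⁅Q.subgroupOf X, Q.subgroupOf X⁆).map X.subtype := ⟨_, h1, rfl⟩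
  rw [Subgroup.map_commutator, Subgroup.map_subgroupOf_eq_of_le hQX] at h2
  exact h2

/-- `[Q, Q] ≤ [Q, P] [C_Q(P), C_Q(P)]` under coprime action. -/
theorem commutator_le_sup_of_coprime {G : Type u} [Group G] [Finite G] (P Q : Subgroup G)
    (hPQ : P ≤ Subgroup.normalizer (Q : Set G)) (hcop : (Nat.card P).Coprime (Nat.card Q))
    (hsolv : Group.IsSolvable P ∨ Group.IsSolvable Q) :
    ⁅Q, Q⁆ ≤ ⁅Q, P⁆ ⊔ ⁅Q ⊓ Subgroup.centralizer (P : Set G),
      Q ⊓ Subgroup.centralizer (P : Set G)⁆ := by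
  have hQD : Q ≤ Subgroup.normalizer ((⁅Q, P⁆ : Subgroup G) : Set G) :=
    le_normalizer_commutator_left Q P
  have hconj : ∀ x ∈ Q, ∀ d ∈ ⁅Q, P⁆, x * d * x⁻¹ ∈ ⁅Q, P⁆ := fun x hx d hd =>
    (Subgroup.mem_normalizer_iff.mp (hQD hx) d).mp hd
  rw [Subgroup.commutator_le]
  intro g₁ hg₁ g₂ hg₂
  obtain ⟨n₁, hn₁, hc₁⟩ := coprime_exists_commutator_mul P Q hPQ hcop hsolv g₁ hg₁
  obtain ⟨n₂, hn₂, hc₂⟩ := coprime_exists_commutator_mul P Q hPQ hcop hsolv g₂ hg₂
  obtain ⟨c₁, hc₁def⟩ : ∃ c, c = g₁ * n₁ := ⟨_, rfl⟩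
  obtain ⟨c₂, hc₂def⟩ : ∃ c, c = g₂ * n₂ := ⟨_, rfl⟩
  rw [← hc₁def] at hc₁
  rw [← hc₂def] at hc₂
  have hg₁e : g₁ = c₁ * n₁⁻¹ := by rw [hc₁def]; group
  have hg₂e : g₂ = c₂ * n₂⁻¹ := by rw [hc₂def]; group
  have hc₁Q : c₁ ∈ Q := (Subgroup.mem_inf.mp hc₁).1
  have hc₂Q : c₂ ∈ Q := (Subgroup.mem_inf.mp hc₂).1
  have e : ⁅c₁ * n₁⁻¹, c₂ * n₂⁻¹⁆ = (c₁ * n₁⁻¹ * c₁⁻¹) *
      ((c₁ * c₂) * (n₂⁻¹ * n₁) * (c₁ * c₂)⁻¹) *
      ((c₁ * c₂ * c₁⁻¹) * n₂ * (c₁ * c₂ * c₁⁻¹)⁻¹) * ⁅c₁, c₂⁆ := by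
    simp only [commutatorElement_def]; group
  rw [hg₁e, hg₂e, e]
  refine Subgroup.mul_mem _ (Subgroup.mul_mem _ (Subgroup.mul_mem _ ?_ ?_) ?_) ?_
  · exact le_sup_left (α := Subgroup G) (hconj c₁ hc₁Q _ (Subgroup.inv_mem _ hn₁))
  · exact le_sup_left (α := Subgroup G) (hconj _ (Q.mul_mem hc₁Q hc₂Q) _
      (Subgroup.mul_mem _ (Subgroup.inv_mem _ hn₂) hn₁))
  · exact le_sup_left (α := Subgroup G)
      (hconj _ (Q.mul_mem (Q.mul_mem hc₁Q hc₂Q) (Q.inv_mem hc₁Q)) _ hn₂)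
  · exact le_sup_right (α := Subgroup G) (Subgroup.commutator_mem_commutator hc₁ hc₂)

namespace Cex

variable {G : Type u} [Group G] {p : ℕ} {P L K : Subgroup G}

/-- A nontrivial central fixed element cannot lie in the commutator subgroup of a proper
`P`-invariant subgroup. -/
theorem false_of_central_commutator [Finite G] (C : Cex p P L K) {v : G} (hvL : v ∈ L)
    (hvZ : v ∈ Subgroup.centralizer (L : Set G)) (hvP : v ∈ Subgroup.centralizer (P : Set G))
    (hv1 : v ≠ 1) (Q : Subgroup G) (hQL : Q ≤ L) (hQne : Q ≠ L)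
    (hPQ : P ≤ Subgroup.normalizer (Q : Set G)) (hvQQ : v ∈ ⁅Q, Q⁆) : False := by
  have hNL : Subgroup.zpowers v ≤ L := (Subgroup.zpowers_le).mpr hvL
  have hNZ : Subgroup.zpowers v ≤ Subgroup.centralizer (L : Set G) :=
    (Subgroup.zpowers_le).mpr hvZ
  have hNP : Subgroup.zpowers v ≤ Subgroup.centralizer (P : Set G) :=
    (Subgroup.zpowers_le).mpr hvP
  have hNne : Subgroup.zpowers v ≠ ⊥ := by
    intro h; exact hv1 (Subgroup.zpowers_eq_bot.mp h)
  have hLN := le_normalizer_of_le_centralizer hNZ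
  have hPN := le_normalizer_of_le_centralizer hNP
  have hCC : ⁅L ⊓ Subgroup.centralizer (P : Set G), L ⊓ Subgroup.centralizer (P : Set G)⁆
      ≤ K := by
    rw [Subgroup.commutator_le]
    intro c₁ hc₁ c₂ hc₂
    obtain ⟨k₁, hk₁, n₁, hn₁, rfl⟩ := C.T3 _ hNL hNne hLN hPN c₁ (Subgroup.mem_inf.mp hc₁).1
      (Subgroup.mem_inf.mp hc₁).2
    obtain ⟨k₂, hk₂, n₂, hn₂, rfl⟩ := C.T3 _ hNL hNne hLN hPN c₂ (Subgroup.mem_inf.mp hc₂).1
      (Subgroup.mem_inf.mp hc₂).2
    have hn1 : ∀ g ∈ L, g * n₁ = n₁ * g := fun g hg =>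
      Subgroup.mem_centralizer_iff.mp (hNZ hn₁) g hg
    have hn2 : ∀ g ∈ L, g * n₂ = n₂ * g := fun g hg =>
      Subgroup.mem_centralizer_iff.mp (hNZ hn₂) g hg
    have e1 : n₁ * (k₂ * n₂) * n₁⁻¹ = k₂ * n₂ :=
      conj_of_comm (hn1 _ (L.mul_mem (C.hKL hk₂) (hNL hn₂))).symm
    have e2 : k₁ * n₂ * k₁⁻¹ = n₂ := conj_of_comm (hn2 _ (C.hKL hk₁))
    have e : ⁅k₁ * n₁, k₂ * n₂⁆ = ⁅k₁, k₂⁆ := by
      calc ⁅k₁ * n₁, k₂ * n₂⁆ = k₁ * (n₁ * (k₂ * n₂) * n₁⁻¹) * k₁⁻¹ * (k₂ * n₂)⁻¹ := by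
            simp only [commutatorElement_def]; group
        _ = k₁ * k₂ * k₁⁻¹ * (k₁ * n₂ * k₁⁻¹) * n₂⁻¹ * k₂⁻¹ := by rw [e1]; group
        _ = ⁅k₁, k₂⁆ := by rw [e2]; simp only [commutatorElement_def]; group
    rw [e]
    exact comm_elem_mem hk₁ hk₂
  have hcopPQ : (Nat.card P).Coprime (Nat.card Q) := C.hcopP_le hQL
  have h1 := commutator_le_sup_of_coprime P Q hPQ hcopPQ (Or.inl C.hsolvP) hvQQ
  have hCQ : ⁅Q ⊓ Subgroup.centralizer (P : Set G), Q ⊓ Subgroup.centralizer (P : Set G)⁆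
      ≤ Q := by
    rw [Subgroup.commutator_le]
    intro a ha b hb
    exact comm_elem_mem (Subgroup.mem_inf.mp ha).1 (Subgroup.mem_inf.mp hb).1
  have hnorm : ⁅Q ⊓ Subgroup.centralizer (P : Set G), Q ⊓ Subgroup.centralizer (P : Set G)⁆
      ≤ Subgroup.normalizer ((⁅Q, P⁆ : Subgroup G) : Set G) :=
    hCQ.trans (le_normalizer_commutator_left Q P)
  have h2 : v ∈ ((⁅Q, P⁆ ⊔ ⁅Q ⊓ Subgroup.centralizer (P : Set G),
      Q ⊓ Subgroup.centralizer (P : Set G)⁆ : Subgroup G) : Set G) := h1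
  rw [Subgroup.coe_mul_of_right_le_normalizer_left _ _ hnorm] at h2
  obtain ⟨d, hd, e, he, hde⟩ := Set.mem_mul.mp h2
  have heK : e ∈ K :=
    hCC (Subgroup.commutator_mono (inf_le_inf_right _ hQL) (inf_le_inf_right _ hQL) he)
  have heC : e ∈ Subgroup.centralizer (P : Set G) := C.hKC heK
  have hdC : d ∈ Subgroup.centralizer (P : Set G) := by
    have : d = v * e⁻¹ := by rw [← hde]; group
    rw [this]; exact Subgroup.mul_mem _ hvP (Subgroup.inv_mem _ heC)
  have hdK : d ∈ K := C.T2 Q hQL hPQ hQne (Subgroup.mem_inf.mpr ⟨hd, hdC⟩)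
  have hvK : v ∈ K := by rw [← hde]; exact K.mul_mem hdK heK
  exact C.F1 _ hNL hNne hLN hPN (inf_le_left.trans ((Subgroup.zpowers_le).mpr hvK))

/-- The minimal counterexample has no central fixed element of prime order. -/
theorem false_of_central [Finite G] (C : Cex p P L K) {v : G} (hvL : v ∈ L)
    (hvZ : v ∈ Subgroup.centralizer (L : Set G)) (hvP : v ∈ Subgroup.centralizer (P : Set G))
    {q : ℕ} [hqf : Fact q.Prime] (hvq : orderOf v = q) : False := by
  obtain ⟨S, hS⟩ := Cfsg.Agent.S0023.result P L C.hPL C.hcopP (Or.inl C.hsolvP) q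
  obtain ⟨Q, hQ⟩ : ∃ Q : Subgroup G, Q = (S : Subgroup L).map L.subtype := ⟨_, rfl⟩
  rw [← hQ] at hS
  have hQL : Q ≤ L := by rw [hQ]; exact Subgroup.map_subtype_le _
  by_cases hQe : Q = L
  · have hq : IsPGroup q L := by
      intro g
      have hg : (g : G) ∈ Q := by rw [hQe]; exact g.2
      rw [hQ] at hg
      obtain ⟨y, hy, hyg⟩ := hg
      have hyg' : y = g := Subtype.ext hyg
      subst hyg'
      obtain ⟨k, hk⟩ := S.isPGroup' ⟨y, hy⟩
      refine ⟨k, ?_⟩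
      have := congrArg Subtype.val hk
      simpa using this
    exact C.false_of_pgroup hq
  · have hv1 : v ≠ 1 := by
      intro h
      rw [h, orderOf_one] at hvq
      exact hqf.out.one_lt.ne hvq
    have hvQ : v ∈ Q := by
      have hwc : ∀ g : L, g * (⟨v, hvL⟩ : L) = ⟨v, hvL⟩ * g := fun g =>
        Subtype.ext (Subgroup.mem_centralizer_iff.mp hvZ g g.2)
      haveI : (Subgroup.zpowers (⟨v, hvL⟩ : L)).Normal := by
        refine ⟨fun n hn g => ?_⟩
        obtain ⟨k, rfl⟩ := Subgroup.mem_zpowers_iff.mp hn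
        have h1 : g * (⟨v, hvL⟩ : L) ^ k = (⟨v, hvL⟩ : L) ^ k * g :=
          (Commute.zpow_right (hwc g) k)
        rw [h1, mul_inv_cancel_right]
        exact hn
      have hpg : IsPGroup q (Subgroup.zpowers (⟨v, hvL⟩ : L)) := by
        apply IsPGroup.of_card (n := 1)
        rw [Nat.card_zpowers, pow_one, Subgroup.orderOf_mk]; exact hvq
      have h3 := hpg.le_sylow_of_normal S (Subgroup.mem_zpowers _)
      rw [hQ]
      exact ⟨⟨v, hvL⟩, h3, rfl⟩
    have hcop : (orderOf v).Coprime (Q.relIndex (L ⊔ P)) := by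
      rw [hvq]
      rw [Nat.Prime.coprime_iff_not_dvd hqf.out]
      intro hdvd
      have ha := Cfsg.Agent.Lib.Helper91.card_sup_mul_card_inf_of_le_normalizer L P C.hPL
      have hb : Nat.card (L ⊔ P : Subgroup G) = Nat.card Q * Q.relIndex (L ⊔ P) :=
        card_eq_card_mul_relIndex (hQL.trans le_sup_left)
      have hc : Nat.card L = Nat.card Q * Q.relIndex L := card_eq_card_mul_relIndex hQL
      have hQpos : 0 < Nat.card Q := Nat.card_pos
      have hd : Q.relIndex (L ⊔ P) * Nat.card (L ⊓ P : Subgroup G) = Q.relIndex L * p := by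
        rw [hb, hc, C.hP] at ha
        have : Nat.card Q * (Q.relIndex (L ⊔ P) * Nat.card (L ⊓ P : Subgroup G))
            = Nat.card Q * (Q.relIndex L * p) := by rw [← mul_assoc, ha, mul_assoc]
        exact Nat.eq_of_mul_eq_mul_left hQpos this
      have he : q ∣ Q.relIndex L * p := by
        rw [← hd]; exact Dvd.dvd.mul_right hdvd _
      rcases (Nat.Prime.dvd_mul hqf.out).mp he with h | h
      · have hS' : Q.subgroupOf L = (S : Subgroup L) := by
          rw [hQ]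
          exact Subgroup.comap_map_eq_self_of_injective (Subgroup.subtype_injective L) _
        have : Q.relIndex L = (S : Subgroup L).index := by
          rw [Subgroup.relIndex, hS']
        rw [this] at h
        exact S.not_dvd_index h
      · have hqp : q = p := (Nat.prime_dvd_prime_iff_eq hqf.out C.hp).mp h
        have hqL : q ∣ Nat.card L := by
          rw [← hvq]
          have h4 : orderOf (⟨v, hvL⟩ : L) ∣ Nat.card L := orderOf_dvd_natCard _
          rwa [Subgroup.orderOf_mk] at h4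
        have h5 : q ∣ Nat.gcd (Nat.card L) p := Nat.dvd_gcd hqL h
        rw [C.hcop] at h5
        exact hqf.out.one_lt.ne' (Nat.dvd_one.mp h5)
    have hvX : v ∈ Subgroup.centralizer ((L ⊔ P : Subgroup G) : Set G) := by
      have h6 : L ⊔ P ≤ Subgroup.centralizer ((Subgroup.zpowers v : Subgroup G) : Set G) :=
        sup_le (Subgroup.le_centralizer_iff.mp ((Subgroup.zpowers_le).mpr hvZ))
          (Subgroup.le_centralizer_iff.mp ((Subgroup.zpowers_le).mpr hvP))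
      exact Subgroup.le_centralizer_iff.mp h6 (Subgroup.mem_zpowers v)
    have hvc : v ∈ ⁅L ⊔ P, L ⊔ P⁆ := by
      have h7 : v ∈ ⁅L, P⁆ := by rw [C.hLL]; exact hvL
      exact Subgroup.commutator_mono le_sup_left le_sup_right h7
    have hvQQ := transfer_central_sub Q (L ⊔ P) (hQL.trans le_sup_left) v
      (le_sup_left (α := Subgroup G) hvL) hvX hvc hcop
    exact C.false_of_central_commutator hvL hvZ hvP hv1 Q hQL hQe hS hvQQ

end Cex

end Cfsg.Agent.Lib.Helper73.Flv
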