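import Mathlib

/-!
# A presentation shared by `GL(2,3)` and the binary octahedral group

Generators `i, j, c, t`; the normal subgroup `⟨i, j⟩` is quaternion of order eight, `c` has
order three and permutes `i → j → i * j`, and `t` inverts `i` and `c`.  The parameter `k`
records the square of `t`, namely `t ^ 2 = i ^ k`.
-/

set_option autoImplicit false

namespace Cfsg.Agent.Lib.Helper73

open Subgroup

section NormalForm

variable {P : Type*} [Group P]

/-- conjugation by `b` preserves the closure of `S` as soon as it maps `S` into it -/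
theorem gl_conj_mem_closure (S : Set P) (b : P) (h : ∀ s ∈ S, b * s * b⁻¹ ∈ closure S) :
    ∀ x ∈ closure S, b * x * b⁻¹ ∈ closure S := by
  intro x hx
  induction hx using Subgroup.closure_induction with
  | mem x hx => exact h x hx
  | one => simp
  | mul x y _ _ hx hy =>
    have e : b * (x * y) * b⁻¹ = (b * x * b⁻¹) * (b * y * b⁻¹) := by group
    rw [e]; exact mul_mem hx hy
  | inv x _ hx =>
    have e : b * x⁻¹ * b⁻¹ = (b * x * b⁻¹)⁻¹ := by group
    rw [e]; exact inv_mem hx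

/-- adjoining an element `b` which normalizes `closure S` and has a power in it -/
theorem gl_normal_form_step (S : Set P) (b : P) (n : ℕ) (hn : 0 < n)
    (hb : b ^ n ∈ closure S) (hconj : ∀ s ∈ S, b * s * b⁻¹ ∈ closure S) :
    ∀ x ∈ closure (insert b S), ∃ h ∈ closure S, ∃ k < n, x = h * b ^ k := by
  have hc := gl_conj_mem_closure S b hconj
  have hpow : ∀ k : ℕ, ∀ x ∈ closure S, b ^ k * x * (b ^ k)⁻¹ ∈ closure S := by
    intro k
    induction k with
    | zero => intro x hx; simpa using hx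
    | succ k ih =>
      intro x hx
      have e : b ^ (k + 1) * x * (b ^ (k + 1))⁻¹ = b * (b ^ k * x * (b ^ k)⁻¹) * b⁻¹ := by
        rw [pow_succ']; group
      rw [e]; exact hc _ (ih x hx)
  have hinv : ∀ x ∈ closure S, b⁻¹ * x * b ∈ closure S := by
    intro x hx
    obtain ⟨m, rfl⟩ : ∃ m, n = m + 1 := Nat.exists_eq_succ_of_ne_zero hn.ne'
    have e : b⁻¹ * x * b = (b ^ (m + 1))⁻¹ * (b ^ m * x * (b ^ m)⁻¹) * b ^ (m + 1) := by
      rw [pow_succ]; group
    rw [e]
    exact mul_mem (mul_mem (inv_mem hb) (hpow m x hx)) hb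
  intro x hx
  induction hx using Subgroup.closure_induction_left with
  | one => exact ⟨1, one_mem _, 0, hn, by simp⟩
  | mul_left g hg y _ ih =>
    obtain ⟨h, hh, k, hk, rfl⟩ := ih
    rcases hg with rfl | hg
    · by_cases hk' : k + 1 < n
      · exact ⟨g * h * g⁻¹, hc h hh, k + 1, hk', by rw [pow_succ']; group⟩
      · have hkn : k + 1 = n := by omega
        refine ⟨g * h * g⁻¹ * g ^ n, mul_mem (hc h hh) hb, 0, hn, ?_⟩
        rw [← hkn, pow_succ']; group
    · exact ⟨g * h, mul_mem (subset_closure hg) hh, k, hk, by group⟩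
  | inv_mul_cancel g hg y _ ih =>
    obtain ⟨h, hh, k, hk, rfl⟩ := ih
    rcases hg with rfl | hg
    · rcases k with _ | k
      · obtain ⟨m, rfl⟩ : ∃ m, n = m + 1 := Nat.exists_eq_succ_of_ne_zero hn.ne'
        refine ⟨g⁻¹ * h * g * (g ^ (m + 1))⁻¹, mul_mem (hinv h hh) (inv_mem hb), m,
          Nat.lt_succ_self m, ?_⟩
        rw [pow_succ]; group
      · exact ⟨g⁻¹ * h * g, hinv h hh, k, by omega, by rw [pow_succ']; group⟩
    · exact ⟨g⁻¹ * h, mul_mem (inv_mem (subset_closure hg)) hh, k, hk, by group⟩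

/-- the relations -/
structure GLRel (k : ℕ) (i j c t : P) : Prop where
  r1 : i ^ 4 = 1
  r2 : j ^ 2 = i ^ 2
  r3 : j * i * j⁻¹ = i⁻¹
  r4 : c * i * c⁻¹ = j
  r5 : c * j * c⁻¹ = i * j
  r6 : c ^ 3 = 1
  r7 : t ^ 2 = i ^ k
  r8 : t * i * t⁻¹ = i⁻¹
  r9 : t * j * t⁻¹ = (i * j)⁻¹
  r10 : t * c * t⁻¹ = c⁻¹

/-- the relators, as a list -/
def glRelList (k : ℕ) (i j c t : P) : List P :=
  [i ^ 4, j ^ 2 * (i ^ 2)⁻¹, j * i * j⁻¹ * i, c * i * c⁻¹ * j⁻¹, c * j * c⁻¹ * (i * j)⁻¹, c ^ 3,
    t ^ 2 * (i ^ k)⁻¹, t * i * t⁻¹ * i, t * j * t⁻¹ * (i * j), t * c * t⁻¹ * c]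

theorem glRel_iff (k : ℕ) (i j c t : P) :
    GLRel k i j c t ↔ ∀ r ∈ glRelList k i j c t, r = 1 := by
  constructor
  · intro h r hr
    simp only [glRelList, List.mem_cons, List.not_mem_nil, or_false] at hr
    rcases hr with rfl | rfl | rfl | rfl | rfl | rfl | rfl | rfl | rfl | rfl
    · exact h.r1
    · rw [h.r2, mul_inv_cancel]
    · rw [h.r3, inv_mul_cancel]
    · rw [h.r4, mul_inv_cancel]
    · rw [h.r5, mul_inv_cancel]
    · exact h.r6
    · rw [h.r7, mul_inv_cancel]
    · rw [h.r8, inv_mul_cancel]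
    · rw [h.r9, inv_mul_cancel]
    · rw [h.r10, inv_mul_cancel]
  · intro h
    have hm : ∀ n : Fin 10, (glRelList k i j c t).get ⟨n, by simp [glRelList]⟩ = 1 :=
      fun n => h _ (List.get_mem _ _)
    exact
      { r1 := hm 0
        r2 := mul_inv_eq_one.mp (hm 1)
        r3 := mul_eq_one_iff_eq_inv.mp (hm 2)
        r4 := mul_inv_eq_one.mp (hm 3)
        r5 := mul_inv_eq_one.mp (hm 4)
        r6 := hm 5
        r7 := mul_inv_eq_one.mp (hm 6)
        r8 := mul_eq_one_iff_eq_inv.mp (hm 7)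
        r9 := mul_eq_one_iff_eq_inv.mp (hm 8)
        r10 := mul_eq_one_iff_eq_inv.mp (hm 9) }

theorem glRelList_map {P' : Type*} [Group P'] (φ : P →* P') (k : ℕ) (i j c t : P) :
    (glRelList k i j c t).map φ = glRelList k (φ i) (φ j) (φ c) (φ t) := by
  simp [glRelList]

theorem GLRel.map {P' : Type*} [Group P'] (φ : P →* P') {k : ℕ} {i j c t : P}
    (h : GLRel k i j c t) : GLRel k (φ i) (φ j) (φ c) (φ t) := by
  rw [glRel_iff] at h ⊢
  intro r hr
  rw [← glRelList_map, List.mem_map] at hr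
  obtain ⟨r', hr', rfl⟩ := hr
  rw [h r' hr', map_one]

/-- normal forms -/
theorem GLRel.normal_form {k : ℕ} {i j c t : P} (h : GLRel k i j c t)
    (hgen : closure {t, c, j, i} = ⊤) (x : P) :
    ∃ a < 4, ∃ b < 2, ∃ d < 3, ∃ e < 2, x = i ^ a * j ^ b * c ^ d * t ^ e := by
  have hi : i ∈ closure ({i} : Set P) := subset_closure rfl
  have s1 : ∀ x ∈ closure ({i} : Set P), ∃ a < 4, x = i ^ a := by
    intro x hx
    have hx' : x ∈ closure (insert i (∅ : Set P)) := by simpa using hx
    obtain ⟨y, hy, a, ha, rfl⟩ := gl_normal_form_step ∅ i 4 (by norm_num)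
      (by rw [h.r1]; exact one_mem _) (by simp) x hx'
    rw [Subgroup.closure_empty, mem_bot] at hy
    exact ⟨a, ha, by rw [hy, one_mul]⟩
  have s2 : ∀ x ∈ closure ({j, i} : Set P), ∃ a < 4, ∃ b < 2, x = i ^ a * j ^ b := by
    intro x hx
    obtain ⟨y, hy, b, hb, rfl⟩ := gl_normal_form_step {i} j 2 (by norm_num)
      (by rw [h.r2]; exact pow_mem hi 2)
      (by
        intro s hs
        rw [Set.mem_singleton_iff] at hs
        rw [hs, h.r3]; exact inv_mem hi) x hx
    obtain ⟨a, ha, rfl⟩ := s1 y hy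
    exact ⟨a, ha, b, hb, rfl⟩
  have hj2 : j ∈ closure ({j, i} : Set P) := subset_closure (by simp)
  have hi2 : i ∈ closure ({j, i} : Set P) := subset_closure (by simp)
  have s3 : ∀ x ∈ closure ({c, j, i} : Set P), ∃ a < 4, ∃ b < 2, ∃ d < 3,
      x = i ^ a * j ^ b * c ^ d := by
    intro x hx
    obtain ⟨y, hy, d, hd, rfl⟩ := gl_normal_form_step {j, i} c 3 (by norm_num)
      (by rw [h.r6]; exact one_mem _)
      (by
        intro s hs
        rcases hs with rfl | hs
        · rw [h.r5]; exact mul_mem hi2 hj2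
        · rw [Set.mem_singleton_iff] at hs
          rw [hs, h.r4]; exact hj2) x hx
    obtain ⟨a, ha, b, hb, rfl⟩ := s2 y hy
    exact ⟨a, ha, b, hb, d, hd, rfl⟩
  have hc3 : c ∈ closure ({c, j, i} : Set P) := subset_closure (by simp)
  have hj3 : j ∈ closure ({c, j, i} : Set P) := subset_closure (by simp)
  have hi3 : i ∈ closure ({c, j, i} : Set P) := subset_closure (by simp)
  have hx : x ∈ closure ({t, c, j, i} : Set P) := by rw [hgen]; exact mem_top x
  obtain ⟨y, hy, e, he, rfl⟩ := gl_normal_form_step {c, j, i} t 2 (by norm_num)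
    (by rw [h.r7]; exact pow_mem hi3 k)
    (by
      intro s hs
      rcases hs with rfl | rfl | hs
      · rw [h.r10]; exact inv_mem hc3
      · rw [h.r9]; exact inv_mem (mul_mem hi3 hj3)
      · rw [Set.mem_singleton_iff] at hs
        rw [hs, h.r8]; exact inv_mem hi3) x hx
  obtain ⟨a, ha, b, hb, d, hd, rfl⟩ := s3 y hy
  exact ⟨a, ha, b, hb, d, hd, e, he, rfl⟩

/-- the order is at most `48` -/
theorem GLRel.card_le {k : ℕ} {i j c t : P} (h : GLRel k i j c t)
    (hgen : closure {t, c, j, i} = ⊤) : Finite P ∧ Nat.card P ≤ 48 := by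
  let ν : Fin 4 × Fin 2 × Fin 3 × Fin 2 → P := fun q =>
    i ^ (q.1 : ℕ) * j ^ (q.2.1 : ℕ) * c ^ (q.2.2.1 : ℕ) * t ^ (q.2.2.2 : ℕ)
  have hν : Function.Surjective ν := by
    intro x
    obtain ⟨a, ha, b, hb, d, hd, e, he, rfl⟩ := h.normal_form hgen x
    exact ⟨(⟨a, ha⟩, ⟨b, hb⟩, ⟨d, hd⟩, ⟨e, he⟩), rfl⟩
  have hfin : Finite P := Finite.of_surjective ν hν
  refine ⟨hfin, ?_⟩
  have h1 := Nat.card_le_card_of_surjective ν hν
  have h2 : Nat.card (Fin 4 × Fin 2 × Fin 3 × Fin 2) = 48 := by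
    simp
  omega

end NormalForm

/-! ### the presented group -/

/-- the relators in the free group -/
def glRels (k : ℕ) : Set (FreeGroup (Fin 4)) :=
  {r | r ∈ glRelList k (FreeGroup.of (0 : Fin 4)) (FreeGroup.of (1 : Fin 4))
    (FreeGroup.of (2 : Fin 4)) (FreeGroup.of (3 : Fin 4))}

theorem glRels_rel (k : ℕ) :
    GLRel k (PresentedGroup.of (0 : Fin 4) : PresentedGroup (glRels k)) (PresentedGroup.of 1)
      (PresentedGroup.of 2) (PresentedGroup.of 3) := by
  rw [glRel_iff]
  intro r hr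
  have e : glRelList k (PresentedGroup.of (0 : Fin 4) : PresentedGroup (glRels k))
      (PresentedGroup.of 1) (PresentedGroup.of 2) (PresentedGroup.of 3)
      = (glRelList k (FreeGroup.of (0 : Fin 4)) (FreeGroup.of (1 : Fin 4))
        (FreeGroup.of (2 : Fin 4)) (FreeGroup.of (3 : Fin 4))).map
          (PresentedGroup.mk (glRels k)) := by
    rw [glRelList_map]; rfl
  rw [e, List.mem_map] at hr
  obtain ⟨r', hr', rfl⟩ := hr
  exact PresentedGroup.one_of_mem hr'

theorem glRels_card (k : ℕ) :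
    Finite (PresentedGroup (glRels k)) ∧ Nat.card (PresentedGroup (glRels k)) ≤ 48 := by
  refine (glRels_rel k).card_le ?_
  rw [← PresentedGroup.closure_range_of (glRels k)]
  congr 1
  ext x
  constructor
  · rintro (rfl | rfl | rfl | rfl)
    · exact ⟨3, rfl⟩
    · exact ⟨2, rfl⟩
    · exact ⟨1, rfl⟩
    · exact ⟨0, rfl⟩
  · rintro ⟨n, rfl⟩
    fin_cases n
    · right; right; right; rfl
    · right; right; left; rfl
    · right; left; rfl
    · left; rfl

/-- the universal property -/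
theorem glRels_lift {G : Type*} [Group G] {k : ℕ} {i j c t : G} (h : GLRel k i j c t) :
    ∃ φ : PresentedGroup (glRels k) →* G, φ (PresentedGroup.of 0) = i ∧
      φ (PresentedGroup.of 1) = j ∧ φ (PresentedGroup.of 2) = c ∧
      φ (PresentedGroup.of 3) = t := by
  have hf : ∀ r ∈ glRels k, FreeGroup.lift ![i, j, c, t] r = 1 := by
    intro r hr
    have hm : FreeGroup.lift ![i, j, c, t] r ∈
        (glRelList k (FreeGroup.of (0 : Fin 4)) (FreeGroup.of (1 : Fin 4))
        (FreeGroup.of (2 : Fin 4)) (FreeGroup.of (3 : Fin 4))).map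
          (FreeGroup.lift ![i, j, c, t]) := List.mem_map.mpr ⟨r, hr, rfl⟩
    rw [glRelList_map] at hm
    simp only [FreeGroup.lift_apply_of] at hm
    exact (glRel_iff k i j c t).mp h _ hm
  exact ⟨PresentedGroup.toGroup hf, PresentedGroup.toGroup.of hf, PresentedGroup.toGroup.of hf,
    PresentedGroup.toGroup.of hf, PresentedGroup.toGroup.of hf⟩

/-- a group of order `48` with the relations maps to any other group with the relations -/
theorem gl_exists_hom {X Y : Type*} [Group X] [Group Y] [Finite X] (k : ℕ) {i j c t : X}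
    {I J C T : Y} (hX : GLRel k i j c t) (hgen : closure {t, c, j, i} = ⊤)
    (hcard : Nat.card X = 48) (hY : GLRel k I J C T) :
    ∃ ψ : X →* Y, ψ i = I ∧ ψ j = J ∧ ψ c = C ∧ ψ t = T := by
  obtain ⟨φ, h0, h1, h2, h3⟩ := glRels_lift hX
  obtain ⟨φ', h0', h1', h2', h3'⟩ := glRels_lift hY
  obtain ⟨hfin, hle⟩ := glRels_card k
  have hsurj : Function.Surjective φ := by
    rw [← MonoidHom.range_eq_top, eq_top_iff, ← hgen, closure_le]
    rintro x (rfl | rfl | rfl | rfl)
    · exact ⟨_, h3⟩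
    · exact ⟨_, h2⟩
    · exact ⟨_, h1⟩
    · exact ⟨_, h0⟩
  have hbij : Function.Bijective φ :=
    hsurj.bijective_of_nat_card_le (by rw [hcard]; exact hle)
  let e : PresentedGroup (glRels k) ≃* X := MulEquiv.ofBijective φ hbij
  have he : ∀ y, e y = φ y := fun y => rfl
  refine ⟨φ'.comp e.symm.toMonoidHom, ?_, ?_, ?_, ?_⟩
  · have : e.symm i = PresentedGroup.of 0 := by rw [MulEquiv.symm_apply_eq, he, h0]
    simp [this, h0']
  · have : e.symm j = PresentedGroup.of 1 := by rw [MulEquiv.symm_apply_eq, he, h1]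
    simp [this, h1']
  · have : e.symm c = PresentedGroup.of 2 := by rw [MulEquiv.symm_apply_eq, he, h2]
    simp [this, h2']
  · have : e.symm t = PresentedGroup.of 3 := by rw [MulEquiv.symm_apply_eq, he, h3]
    simp [this, h3']

end Cfsg.Agent.Lib.Helper73
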