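import Mathlib
import Cfsg.Agent.Lib.Helper73.PresGL

/-!
# The relations in `GL(2,3)` and in the symmetric group of degree four
-/

set_option autoImplicit false

namespace Cfsg.Agent.Lib.Helper73

/-- the generators in `GL(2,3)` -/
def gl23I : GL (Fin 2) (ZMod 3) := ⟨!![0, 1; 2, 0], !![0, 2; 1, 0], by decide, by decide⟩
/-- the generators in `GL(2,3)` -/
def gl23J : GL (Fin 2) (ZMod 3) := ⟨!![1, 1; 1, 2], !![2, 2; 2, 1], by decide, by decide⟩
/-- the generators in `GL(2,3)` -/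
def gl23C : GL (Fin 2) (ZMod 3) := ⟨!![0, 1; 2, 2], !![2, 2; 1, 0], by decide, by decide⟩
/-- the generators in `GL(2,3)` -/
def gl23T : GL (Fin 2) (ZMod 3) := ⟨!![0, 1; 1, 0], !![0, 1; 1, 0], by decide, by decide⟩

theorem gl23_rel : GLRel 0 gl23I gl23J gl23C gl23T where
  r1 := by decide
  r2 := by decide
  r3 := by decide
  r4 := by decide
  r5 := by decide
  r6 := by decide
  r7 := by decide
  r8 := by decide
  r9 := by decide
  r10 := by decide

theorem gl23_sq_ne : gl23I ^ 2 ≠ 1 := by decide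

/-- the generators in the symmetric group -/
def s4I : Equiv.Perm (Fin 4) := Equiv.swap 0 1 * Equiv.swap 2 3
/-- the generators in the symmetric group -/
def s4J : Equiv.Perm (Fin 4) := Equiv.swap 0 2 * Equiv.swap 1 3
/-- the generators in the symmetric group -/
def s4C : Equiv.Perm (Fin 4) := Equiv.swap 1 2 * Equiv.swap 2 3
/-- the generators in the symmetric group -/
def s4T : Equiv.Perm (Fin 4) := Equiv.swap 2 3

theorem s4_rel : GLRel 2 s4I s4J s4C s4T where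
  r1 := by decide
  r2 := by decide
  r3 := by decide
  r4 := by decide
  r5 := by decide
  r6 := by decide
  r7 := by decide
  r8 := by decide
  r9 := by decide
  r10 := by decide

theorem s4_surj : ∀ σ : Equiv.Perm (Fin 4), ∃ p : Fin 4 × Fin 2 × Fin 3 × Fin 2,
    σ = s4I ^ (p.1 : ℕ) * s4J ^ (p.2.1 : ℕ) * s4C ^ (p.2.2.1 : ℕ) * s4T ^ (p.2.2.2 : ℕ) := by
  decide

end Cfsg.Agent.Lib.Helper73

namespace Cfsg.Agent.Lib.Helper73

set_option maxRecDepth 100000 in
theorem gl23_surj_aux : ∀ a b c d : ZMod 3, a * d - b * c ≠ 0 →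
    ∃ p : Fin 4 × Fin 2 × Fin 3 × Fin 2, (!![a, b; c, d] : Matrix (Fin 2) (Fin 2) (ZMod 3)) =
      (gl23I ^ (p.1 : ℕ) * gl23J ^ (p.2.1 : ℕ) * gl23C ^ (p.2.2.1 : ℕ) *
        gl23T ^ (p.2.2.2 : ℕ)).val := by
  decide

theorem gl23_surj (g : GL (Fin 2) (ZMod 3)) : ∃ p : Fin 4 × Fin 2 × Fin 3 × Fin 2,
    g = gl23I ^ (p.1 : ℕ) * gl23J ^ (p.2.1 : ℕ) * gl23C ^ (p.2.2.1 : ℕ) *
      gl23T ^ (p.2.2.2 : ℕ) := by
  have hdet : g.val 0 0 * g.val 1 1 - g.val 0 1 * g.val 1 0 ≠ 0 := by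
    have h := (Matrix.GeneralLinearGroup.det g).ne_zero
    rw [Matrix.GeneralLinearGroup.val_det_apply, Matrix.det_fin_two] at h
    exact h
  obtain ⟨p, hp⟩ := gl23_surj_aux _ _ _ _ hdet
  refine ⟨p, Units.ext ?_⟩
  rw [← hp]
  exact Matrix.eta_fin_two g.val

theorem gl23_card : Nat.card (GL (Fin 2) (ZMod 3)) = 48 := by
  have hF : Fact (Nat.Prime 3) := ⟨Nat.prime_three⟩
  rw [Matrix.card_GL_field, ZMod.card, Fin.prod_univ_two]
  rfl

end Cfsg.Agent.Lib.Helper73
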