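import Mathlib
import Cfsg.Agent.Lib.Helper73.Q8Aut
import Cfsg.Agent.Lib.Helper73.GL23Data

/-!
# Groups with a self-centralizing normal quaternion subgroup of order eight
-/

set_option autoImplicit false

namespace Cfsg.Agent.Lib.Helper73

open QuaternionGroup Subgroup

theorem q8c_vals : q8c (a 1) = xa 0 ∧ q8c (xa 0) = xa 3 ∧ q8t (a 1) = a 3 ∧ q8t (xa 0) = xa 1 := by
  decide

section

variable {X : Type*} [Group X]

/-- the action on a normal quaternion subgroup -/
noncomputable def q8Act (ι : QuaternionGroup 2 →* X) (hι : Function.Injective ι)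
    [hn : ι.range.Normal] : X →* MulAut (QuaternionGroup 2) :=
  (MulAut.congr (MonoidHom.ofInjective hι).symm).toMonoidHom.comp
    (MulAut.conjNormal (H := ι.range))

theorem q8Act_apply (ι : QuaternionGroup 2 →* X) (hι : Function.Injective ι)
    [hn : ι.range.Normal] (g : X) (x : QuaternionGroup 2) :
    ι (q8Act ι hι g x) = g * ι x * g⁻¹ := by
  have h1 : q8Act ι hι g x = (MonoidHom.ofInjective hι).symm
      (MulAut.conjNormal g (MonoidHom.ofInjective hι x)) := rfl
  rw [h1, MonoidHom.apply_ofInjective_symm, MulAut.conjNormal_apply, MonoidHom.ofInjective_apply]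

/-- the structure of a group with a self-centralizing normal quaternion subgroup which is
neither a `2`-group nor of order prime to `16` -/
theorem q8_structure [Finite X] (ι : QuaternionGroup 2 →* X)
    (hι : Function.Injective ι) [hn : ι.range.Normal]
    (hC : Subgroup.centralizer (ι.range : Set X) ≤ ι.range)
    (h16 : 16 ∣ Nat.card X) (h2 : ¬ IsPGroup 2 X) :
    Nat.card X = 48 ∧ ∃ c t : X, ∃ k : ℕ, (k = 0 ∨ k = 2) ∧
      GLRel k (ι (a 1)) (ι (xa 0)) c t ∧ closure {t, c, ι (xa 0), ι (a 1)} = ⊤ ∧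
      (∀ x, c * ι x * c⁻¹ = ι (q8c x)) ∧ (∀ x, t * ι x * t⁻¹ = ι (q8t x)) ∧
      (∀ g : X, (∀ x, g * ι x * g⁻¹ = ι x) → g = 1 ∨ g = ι (a 2)) ∧
      (∀ g : X, g * ι (a 2) = ι (a 2) * g) := by
  classical
  obtain ⟨α, hα⟩ : ∃ α : X →* MulAut (QuaternionGroup 2), α = q8Act ι hι := ⟨_, rfl⟩
  have hact : ∀ g x, ι (α g x) = g * ι x * g⁻¹ := by
    intro g x; rw [hα]; exact q8Act_apply ι hι g x
  -- the kernel of the action
  have hker : ∀ g : X, (∀ x, g * ι x * g⁻¹ = ι x) → g = 1 ∨ g = ι (a 2) := by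
    intro g hg
    have hgc : g ∈ Subgroup.centralizer (ι.range : Set X) := by
      rw [Subgroup.mem_centralizer_iff]
      rintro _ ⟨x, rfl⟩
      have := hg x
      calc ι x * g = (g * ι x * g⁻¹) * g := by rw [this]
        _ = g * ι x := by group
    obtain ⟨y, rfl⟩ := hC hgc
    have hy : ∀ x, y * x = x * y := by
      intro x
      apply hι
      have := hg x
      rw [map_mul, map_mul]
      calc ι y * ι x = (ι y * ι x * (ι y)⁻¹) * ι y := by group
        _ = ι x * ι y := by rw [this]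
    rcases q8_center y hy with rfl | rfl
    · left; exact map_one ι
    · right; rfl
  have hz : ∀ g : X, g * ι (a 2) * g⁻¹ = ι (a 2) := by
    intro g
    rw [← hact]
    congr 1
    have h1 : (α g (a 2)) ^ 2 = 1 := by rw [← map_pow, q8_a2_sq, map_one]
    rcases q8_invol _ h1 with h | h
    · exfalso
      rw [← map_one (α g)] at h
      exact q8_a2_ne ((α g).injective h)
    · exact h
  obtain ⟨z, hzdef⟩ : ∃ z : X, z = ι (a 2) := ⟨_, rfl⟩
  rw [← hzdef] at hz hker
  have hz1 : z ≠ 1 := by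
    intro h
    apply q8_a2_ne
    apply hι
    rw [← hzdef, h, map_one]
  have hzc : ∀ g : X, g * z = z * g := by
    intro g
    have := hz g
    calc g * z = (g * z * g⁻¹) * g := by group
      _ = z * g := by rw [this]
  have hz2 : z ^ 2 = 1 := by rw [hzdef, ← map_pow, q8_a2_sq, map_one]
  have hαker : ∀ g : X, α g = 1 ↔ (g = 1 ∨ g = z) := by
    intro g
    constructor
    · intro h
      apply hker
      intro x
      rw [← hact, h]; rfl
    · rintro (rfl | rfl)
      · exact map_one α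
      · ext x
        apply hι
        rw [hact, hzdef, ← map_inv, ← map_mul, ← map_mul, q8_central]; rfl
  have hkercard : Nat.card α.ker = 2 := by
    rw [Nat.card_eq_two_iff]
    refine ⟨⟨1, one_mem _⟩, ⟨z, (hαker z).mpr (Or.inr rfl)⟩, ?_, ?_⟩
    · intro h; exact hz1 (congrArg Subtype.val h).symm
    · ext ⟨g, hg⟩
      simp only [Set.mem_insert_iff, Set.mem_singleton_iff, Set.mem_univ, iff_true]
      rcases (hαker g).mp hg with h | h
      · left; exact Subtype.ext h
      · right; exact Subtype.ext h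
  -- automorphisms are determined by the images of the generators
  have hpair : ∀ σ : MulAut (QuaternionGroup 2), (σ (a 1)) ^ 2 = (σ (xa 0)) ^ 2 ∧
      (σ (a 1)) ^ 2 ≠ 1 ∧ σ (xa 0) * σ (a 1) * (σ (xa 0))⁻¹ = (σ (a 1))⁻¹ := by
    intro σ
    obtain ⟨-, r2, r3, r4⟩ := q8_rel
    refine ⟨?_, ?_, ?_⟩
    · rw [← map_pow, ← map_pow, r2]
    · rw [← map_pow]
      intro h
      rw [← map_one σ] at h
      exact r4 (σ.injective h)
    · rw [← map_inv, ← map_mul, ← map_mul, r3, map_inv]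
  let Ψ : α.range → {p : QuaternionGroup 2 × QuaternionGroup 2 //
      p.1 ^ 2 = p.2 ^ 2 ∧ p.1 ^ 2 ≠ 1 ∧ p.2 * p.1 * p.2⁻¹ = p.1⁻¹} :=
    fun σ => ⟨((σ : MulAut (QuaternionGroup 2)) (a 1), (σ : MulAut (QuaternionGroup 2)) (xa 0)),
      hpair σ⟩
  have hΨ : Function.Injective Ψ := by
    intro σ τ h
    have h1 : (σ : MulAut (QuaternionGroup 2)) (a 1) = (τ : MulAut (QuaternionGroup 2)) (a 1) :=
      congrArg (fun p => p.1.1) h
    have h2 : (σ : MulAut (QuaternionGroup 2)) (xa 0)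
        = (τ : MulAut (QuaternionGroup 2)) (xa 0) := congrArg (fun p => p.1.2) h
    apply Subtype.ext
    ext x
    rw [q8_aut_eval, q8_aut_eval (τ : MulAut (QuaternionGroup 2)), h1, h2]
  have hYcard : Nat.card {p : QuaternionGroup 2 × QuaternionGroup 2 //
      p.1 ^ 2 = p.2 ^ 2 ∧ p.1 ^ 2 ≠ 1 ∧ p.2 * p.1 * p.2⁻¹ = p.1⁻¹} = 24 := by
    rw [Nat.card_eq_fintype_card]; exact q8_pairs_card
  have hrange_le : Nat.card α.range ≤ 24 := by
    rw [← hYcard]; exact Nat.card_le_card_of_injective Ψ hΨ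
  have hcard_eq : Nat.card X = Nat.card α.ker * Nat.card α.range := by
    rw [← Nat.card_congr (QuotientGroup.quotientKerEquivRange α).toEquiv, mul_comm]
    exact Subgroup.card_eq_card_quotient_mul_card_subgroup α.ker
  rw [hkercard] at hcard_eq
  have hcard : Nat.card X = 48 := by
    obtain ⟨r, hr⟩ := h16
    have hr6 : r ≤ 3 := by omega
    have hr0 : 0 < r := by have := Nat.card_pos (α := X); omega
    interval_cases r
    · exfalso; exact h2 (IsPGroup.of_card (n := 4) (by rw [hr]; norm_num))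
    · exfalso; exact h2 (IsPGroup.of_card (n := 5) (by rw [hr]; norm_num))
    · rw [hr]
  have hrange : Nat.card α.range = 24 := by omega
  have hΨs : Function.Surjective Ψ :=
    (hΨ.bijective_of_nat_card_le (by rw [hYcard, hrange])).2
  have htrans : ∀ u v : QuaternionGroup 2, u ^ 2 = v ^ 2 → u ^ 2 ≠ 1 → v * u * v⁻¹ = u⁻¹ →
      ∃ g : X, α g (a 1) = u ∧ α g (xa 0) = v := by
    intro u v h1 h2 h3
    obtain ⟨⟨σ, g, rfl⟩, hσ⟩ := hΨs ⟨(u, v), h1, h2, h3⟩
    exact ⟨g, congrArg (fun p => p.1.1) hσ, congrArg (fun p => p.1.2) hσ⟩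
  obtain ⟨c₀, hc1, hc2⟩ := htrans (xa 0) (xa 3) (by decide) (by decide) (by decide)
  obtain ⟨t, ht1, ht2⟩ := htrans (a 3) (xa 1) (by decide) (by decide) (by decide)
  have hc₀ : ∀ x, α c₀ x = q8c x := by
    intro x; rw [q8_aut_eval, hc1, hc2]; rfl
  have ht : ∀ x, α t x = q8t x := by
    intro x; rw [q8_aut_eval, ht1, ht2]; rfl
  have hc₀3 : α (c₀ ^ 3) = 1 := by
    ext x
    have e : (α c₀) ^ 3 = α c₀ * (α c₀ * α c₀) := by rw [pow_succ', pow_two]
    rw [map_pow, e, MulAut.mul_apply, MulAut.mul_apply, hc₀, hc₀, hc₀, q8c_cube]; rfl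
  obtain ⟨c, hc3, hcα⟩ : ∃ c : X, c ^ 3 = 1 ∧ α c = α c₀ := by
    rcases (hαker _).mp hc₀3 with h | h
    · exact ⟨c₀, h, rfl⟩
    · refine ⟨c₀ * z, ?_, ?_⟩
      · rw [(show Commute c₀ z from hzc c₀).mul_pow, h, ← pow_succ',
          show 3 + 1 = 2 * 2 from rfl, pow_mul, hz2, one_pow]
      · rw [map_mul, (hαker z).mpr (Or.inr rfl), mul_one]
  have hc : ∀ x, α c x = q8c x := by intro x; rw [hcα]; exact hc₀ x
  obtain ⟨w1, w2, w3, w4⟩ := q8c_vals
  have hconj_c : ∀ x, c * ι x * c⁻¹ = ι (q8c x) := fun x => by rw [← hact, hc]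
  have hconj_t : ∀ x, t * ι x * t⁻¹ = ι (q8t x) := fun x => by rw [← hact, ht]
  have hcne : c ≠ 1 := by
    intro h
    have h1 := hconj_c (a 1)
    rw [h, w1] at h1
    have h2 : ι (a 1) = ι (xa 0) := by rw [← h1]; group
    exact absurd (hι h2) (by decide)
  have ht2' : α (t ^ 2) = 1 := by
    ext x
    rw [map_pow, pow_two, MulAut.mul_apply, ht, ht, q8t_sq]; rfl
  have hctc : α (c * t * c * t⁻¹) = 1 := by
    rw [map_mul, map_inv, mul_inv_eq_one]
    ext x
    rw [map_mul, map_mul, MulAut.mul_apply, MulAut.mul_apply, hc, ht, hc, q8_ctc, ht]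
  obtain ⟨q1, q2, q3, q4⟩ := q8_rel
  obtain ⟨v1, v2, v3⟩ := q8_vals
  have r10 : t * c * t⁻¹ = c⁻¹ := by
    have e0 : t * c * t⁻¹ = c⁻¹ * (c * t * c * t⁻¹) := by group
    rcases (hαker _).mp hctc with h | h
    · rw [e0, h, mul_one]
    · exfalso
      have e1 : t * c * t⁻¹ = c⁻¹ * z := by rw [e0, h]
      have e2 : (t * c * t⁻¹) ^ 3 = 1 := by
        rw [conj_pow, hc3]; group
      rw [e1, (show Commute c⁻¹ z from (hzc c⁻¹)).mul_pow, inv_pow, hc3, inv_one, one_mul] at e2
      apply hz1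
      calc z = z ^ 3 * (z ^ 2)⁻¹ := by group
        _ = 1 := by rw [e2, hz2]; simp
  have hk : ∃ k : ℕ, (k = 0 ∨ k = 2) ∧ t ^ 2 = ι (a 1) ^ k := by
    rcases (hαker _).mp ht2' with h | h
    · exact ⟨0, Or.inl rfl, by rw [h, pow_zero]⟩
    · exact ⟨2, Or.inr rfl, by rw [h, hzdef, ← map_pow, q8_a1_sq]⟩
  obtain ⟨k, hk01, hk⟩ := hk
  have hrel : GLRel k (ι (a 1)) (ι (xa 0)) c t :=
    { r1 := by rw [← map_pow, q1, map_one]
      r2 := by rw [← map_pow, ← map_pow, q2]
      r3 := by rw [← map_inv, ← map_mul, ← map_mul, q3, map_inv]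
      r4 := by rw [hconj_c, w1]
      r5 := by rw [hconj_c, w2, ← map_mul, ← v1]
      r6 := hc3
      r7 := hk
      r8 := by rw [hconj_t, w3, ← map_inv, ← v2]
      r9 := by rw [hconj_t, w4, ← map_mul, ← map_inv, ← v3]
      r10 := r10 }
  -- generation
  have hgen : closure {t, c, ι (xa 0), ι (a 1)} = ⊤ := by
    obtain ⟨M, hM⟩ : ∃ M : Subgroup X, M = closure {t, c, ι (xa 0), ι (a 1)} := ⟨_, rfl⟩
    rw [← hM]
    have hiM : ι (a 1) ∈ M := hM ▸ subset_closure (by simp)
    have hjM : ι (xa 0) ∈ M := hM ▸ subset_closure (by simp)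
    have hcM : c ∈ M := hM ▸ subset_closure (by simp)
    have htM : t ∈ M := hM ▸ subset_closure (by simp)
    have hQM : ι.range ≤ M := by
      rintro _ ⟨x, rfl⟩
      obtain ⟨m, n, rfl⟩ := q8_gen x
      rw [map_mul, map_pow, map_pow]
      exact mul_mem (pow_mem hiM _) (pow_mem hjM _)
    have hQcard : Nat.card ι.range = 8 := by
      rw [← Nat.card_congr (MonoidHom.ofInjective hι).toEquiv, Nat.card_eq_fintype_card,
        QuaternionGroup.card]
    have hoc : orderOf c = 3 := orderOf_eq_prime hc3 hcne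
    have hcQ : c ∉ ι.range := by
      rintro ⟨y, hy⟩
      apply hcne
      have h4 : c ^ 4 = 1 := by rw [← hy, ← map_pow, q8_pow_four, map_one]
      calc c = c ^ 4 * (c ^ 3)⁻¹ := by group
        _ = 1 := by rw [h4, hc3]; simp
    have htK : t ∉ ι.range ⊔ zpowers c := by
      intro h
      rw [← SetLike.mem_coe, Subgroup.normal_mul] at h
      obtain ⟨q, hq, c', hc', hqc⟩ := Set.mem_mul.mp h
      obtain ⟨n, rfl⟩ := Subgroup.mem_zpowers_iff.mp hc'
      have e1 : q * c * q⁻¹ = c⁻¹ := by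
        rw [← r10, ← hqc]; group
      apply hcQ
      have e2 : c = q * (c * q⁻¹ * c⁻¹) := by
        have : q * (c * q⁻¹ * c⁻¹) = (q * c * q⁻¹) * c⁻¹ := by group
        rw [this, e1]
        calc c = c ^ 3 * (c⁻¹ * c⁻¹) := by group
          _ = c⁻¹ * c⁻¹ := by rw [hc3, one_mul]
      rw [e2]
      exact mul_mem hq (hn.conj_mem _ (inv_mem hq) c)
    have h24 : 24 ∣ Nat.card (ι.range ⊔ zpowers c : Subgroup X) := by
      have h8 : 8 ∣ Nat.card (ι.range ⊔ zpowers c : Subgroup X) := by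
        rw [← hQcard]; exact Subgroup.card_dvd_of_le le_sup_left
      have h3 : 3 ∣ Nat.card (ι.range ⊔ zpowers c : Subgroup X) := by
        rw [← hoc, ← Nat.card_zpowers]; exact Subgroup.card_dvd_of_le le_sup_right
      exact Nat.Coprime.mul_dvd_of_dvd_of_dvd (by norm_num) h8 h3
    have hKM : ι.range ⊔ zpowers c ≤ M := sup_le hQM (zpowers_le.mpr hcM)
    have hMdvd : Nat.card M ∣ 48 := hcard ▸ Subgroup.card_subgroup_dvd_card M
    have hKdvdM : Nat.card (ι.range ⊔ zpowers c : Subgroup X) ∣ Nat.card M :=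
      Subgroup.card_dvd_of_le hKM
    have hM48 : Nat.card M = 48 := by
      by_contra hne
      have hMle : Nat.card M ≤ 48 := Nat.le_of_dvd (by norm_num) hMdvd
      have hMpos : 0 < Nat.card M := Nat.card_pos
      have hKpos : 0 < Nat.card (ι.range ⊔ zpowers c : Subgroup X) := Nat.card_pos
      have hKle : Nat.card (ι.range ⊔ zpowers c : Subgroup X) ≤ Nat.card M :=
        Nat.le_of_dvd hMpos hKdvdM
      have hM24 : Nat.card M = 24 := by
        obtain ⟨r, hr⟩ := h24.trans hKdvdM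
        have : r ≤ 2 := by omega
        interval_cases r <;> omega
      have hK24 : Nat.card (ι.range ⊔ zpowers c : Subgroup X) = 24 := by
        obtain ⟨s, hs⟩ := h24
        have : s ≤ 1 := by omega
        interval_cases s <;> omega
      have hKeq : ι.range ⊔ zpowers c = M :=
        Subgroup.eq_of_le_of_card_ge hKM (by rw [hK24, hM24])
      exact htK (hKeq ▸ htM)
    rw [← Subgroup.card_eq_iff_eq_top, hM48, hcard]
  exact ⟨hcard, c, t, k, hk01, hrel, hgen, hconj_c, hconj_t, hzdef ▸ hker, hzdef ▸ hzc⟩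

end

end Cfsg.Agent.Lib.Helper73
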