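import Mathlib
import Cfsg.Agent.Lib.Helper73.Q8CoreB
import Cfsg.Agent.S0016

/-!
# The two groups of order `48` with a self-centralizing normal quaternion subgroup
-/

set_option autoImplicit false

namespace Cfsg.Agent.Lib.Helper73

open QuaternionGroup Subgroup

/-- the case where `t` is an involution: `GL(2,3)` -/
theorem q8_gl23 {X : Type*} [Group X] [Finite X] {i j c t : X} (hcard : Nat.card X = 48)
    (hrel : GLRel 0 i j c t) (hgen : closure {t, c, j, i} = ⊤) :
    Nonempty (X ≃* GL (Fin 2) (ZMod 3)) := by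
  obtain ⟨ψ, h0, h1, h2, h3⟩ := gl_exists_hom 0 hrel hgen hcard gl23_rel
  have hsurj : Function.Surjective ψ := by
    intro g
    obtain ⟨p, rfl⟩ := gl23_surj g
    exact ⟨i ^ (p.1 : ℕ) * j ^ (p.2.1 : ℕ) * c ^ (p.2.2.1 : ℕ) * t ^ (p.2.2.2 : ℕ),
      by simp [h0, h1, h2, h3]⟩
  have hbij := hsurj.bijective_of_nat_card_le (by rw [hcard, gl23_card])
  exact ⟨MulEquiv.ofBijective ψ hbij⟩

theorem s4_no_invol : ∀ (a' : Fin 4) (b : Fin 2) (d : Fin 3),
    (s4I ^ (a' : ℕ) * s4J ^ (b : ℕ) * s4C ^ (d : ℕ)) ^ 2 = 1 → d = 0 := by decide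

/-- the case where `t` squares to the central involution: the binary octahedral group -/
theorem q8_binary_octahedral {X : Type*} [Group X] [Finite X] (ι : QuaternionGroup 2 →* X)
    (hι : Function.Injective ι) [hn : ι.range.Normal] {c t : X} (hcard : Nat.card X = 48)
    (hrel : GLRel 2 (ι (a 1)) (ι (xa 0)) c t) (hgen : closure {t, c, ι (xa 0), ι (a 1)} = ⊤)
    (hc : ∀ x, c * ι x * c⁻¹ = ι (q8c x)) (ht : ∀ x, t * ι x * t⁻¹ = ι (q8t x))
    (hker : ∀ g : X, (∀ x, g * ι x * g⁻¹ = ι x) → g = 1 ∨ g = ι (a 2))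
    (hzc : ∀ g : X, g * ι (a 2) = ι (a 2) * g) :
    Nat.card (Subgroup.center X) = 2 ∧
      Nonempty (X ⧸ Subgroup.center X ≃* Equiv.Perm (Fin 4)) ∧
      ∀ P : Sylow 2 X, Nonempty (↥(P : Subgroup X) ≃* QuaternionGroup 4) := by
  classical
  have : Fact (Nat.Prime 2) := ⟨Nat.prime_two⟩
  obtain ⟨z, hzdef⟩ : ∃ z : X, z = ι (a 2) := ⟨_, rfl⟩
  rw [← hzdef] at hker hzc
  have hz1 : z ≠ 1 := by
    intro h
    apply q8_a2_ne
    apply hι
    rw [← hzdef, h, map_one]
  have hzi : z = ι (a 1) ^ 2 := by rw [hzdef, ← map_pow, q8_a1_sq]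
  -- the centre
  have hcen : ∀ g : X, g ∈ Subgroup.center X ↔ (g = 1 ∨ g = z) := by
    intro g
    constructor
    · intro hg
      apply hker
      intro x
      rw [Subgroup.mem_center_iff] at hg
      rw [← hg (ι x)]; group
    · rintro (rfl | rfl)
      · exact one_mem _
      · rw [Subgroup.mem_center_iff]; intro g; exact hzc g
  have hcencard : Nat.card (Subgroup.center X) = 2 := by
    rw [Nat.card_eq_two_iff]
    refine ⟨⟨1, one_mem _⟩, ⟨z, (hcen z).mpr (Or.inr rfl)⟩, ?_, ?_⟩
    · intro h; exact hz1 (congrArg Subtype.val h).symm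
    · ext ⟨g, hg⟩
      simp only [Set.mem_insert_iff, Set.mem_singleton_iff, Set.mem_univ, iff_true]
      rcases (hcen g).mp hg with h | h
      · left; exact Subtype.ext h
      · right; exact Subtype.ext h
  -- the map onto the symmetric group
  obtain ⟨ψ, h0, h1, h2, h3⟩ := gl_exists_hom 2 hrel hgen hcard s4_rel
  have hsurj : Function.Surjective ψ := by
    intro σ
    obtain ⟨p, rfl⟩ := s4_surj σ
    exact ⟨ι (a 1) ^ (p.1 : ℕ) * ι (xa 0) ^ (p.2.1 : ℕ) * c ^ (p.2.2.1 : ℕ) * t ^ (p.2.2.2 : ℕ),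
      by simp [h0, h1, h2, h3]⟩
  have hkercard : Nat.card ψ.ker = 2 := by
    have e1 := Subgroup.card_eq_card_quotient_mul_card_subgroup ψ.ker
    rw [Nat.card_congr (QuotientGroup.quotientKerEquivOfSurjective ψ hsurj).toEquiv, hcard,
      Nat.card_perm, Nat.card_fin] at e1
    have : Nat.factorial 4 = 24 := rfl
    rw [this] at e1
    omega
  have hzker : z ∈ ψ.ker := by
    rw [MonoidHom.mem_ker, hzi, map_pow, h0]; decide
  have hle : Subgroup.center X ≤ ψ.ker := by
    intro g hg
    rcases (hcen g).mp hg with rfl | rfl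
    · exact one_mem _
    · exact hzker
  have heq : Subgroup.center X = ψ.ker :=
    Subgroup.eq_of_le_of_card_ge hle (by rw [hkercard, hcencard])
  refine ⟨hcencard, ⟨(QuotientGroup.quotientMulEquivOfEq heq).trans
    (QuotientGroup.quotientKerEquivOfSurjective ψ hsurj)⟩, ?_⟩
  -- conjugation by powers of `c`
  have hcd : ∀ d : ℕ, ∀ x, c ^ d * ι x * (c ^ d)⁻¹ = ι (q8c^[d] x) := by
    intro d
    induction d with
    | zero => intro x; simp
    | succ d ih =>
      intro x
      have e : c ^ (d + 1) * ι x * (c ^ (d + 1))⁻¹ = c * (c ^ d * ι x * (c ^ d)⁻¹) * c⁻¹ := by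
        rw [pow_succ']; group
      rw [e, ih, hc, Function.iterate_succ_apply']
  have htc : ∀ d : ℕ, t * c ^ d * t⁻¹ = (c ^ d)⁻¹ := by
    intro d
    rw [← conj_pow, hrel.r10, inv_pow]
  have ht2 : t ^ 2 = z := by rw [hrel.r7, hzi]
  -- the involutions
  have hinv : ∀ w : X, w ^ 2 = 1 → w = 1 ∨ w = z := by
    intro w hw
    obtain ⟨a', ha, b, hb, d, hd, e, he, rfl⟩ := hrel.normal_form hgen w
    obtain ⟨y, hy⟩ : ∃ y : QuaternionGroup 2, ι y = ι (a 1) ^ a' * ι (xa 0) ^ b :=
      ⟨a 1 ^ a' * xa 0 ^ b, by rw [map_mul, map_pow, map_pow]⟩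
    rw [← hy] at hw ⊢
    interval_cases e
    · rw [pow_zero, mul_one] at hw ⊢
      have hψ : (ψ (ι y * c ^ d)) ^ 2 = 1 := by rw [← map_pow, hw, map_one]
      rw [hy, map_mul, map_mul, map_pow, map_pow, map_pow, h0, h1, h2] at hψ
      have hd0 : d = 0 := congrArg Fin.val (s4_no_invol ⟨a', ha⟩ ⟨b, hb⟩ ⟨d, hd⟩ hψ)
      subst hd0
      rw [pow_zero, mul_one] at hw ⊢
      have hy2 : y ^ 2 = 1 := hι (by rw [map_pow, hw, map_one])
      rcases q8_invol y hy2 with rfl | rfl
      · left; exact map_one ι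
      · right; exact hzdef.symm
    · exfalso
      rw [pow_one] at hw
      have e1 : (ι y * c ^ d * t) ^ 2 = ι y * (c ^ d * (t * ι y * t⁻¹) * (c ^ d)⁻¹) *
          (c ^ d * (t * c ^ d * t⁻¹)) * t ^ 2 := by
        rw [pow_two, pow_two]; group
      rw [e1, ht, hcd, htc, mul_inv_cancel, mul_one, ht2, hzdef, ← map_mul, ← map_mul] at hw
      have h5 : y * q8c^[d] (q8t y) * a 2 = 1 := hι (by rw [hw, map_one])
      apply q8_no_invol ⟨d, hd⟩ y
      have h6 : y * q8c^[d] (q8t y) = (a 2)⁻¹ := mul_eq_one_iff_eq_inv.mp h5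
      rw [h6]; decide
  -- the Sylow subgroups
  have hQcard : Nat.card ι.range = 8 := by
    rw [← Nat.card_congr (MonoidHom.ofInjective hι).toEquiv, Nat.card_eq_fintype_card,
      QuaternionGroup.card]
  have hQ2 : IsPGroup 2 ι.range := IsPGroup.of_card (n := 3) (by rw [hQcard]; norm_num)
  intro P
  have hQP : ι.range ≤ P := hQ2.le_sylow_of_normal P
  have hP2 : IsPGroup 2 ↥(P : Subgroup X) := P.isPGroup'
  have hfwd : ∀ H : Subgroup ↥(P : Subgroup X), Nat.card H = 2 → ∀ h ∈ H,
      (h : X) = 1 ∨ (h : X) = z := by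
    intro H hH h hh
    apply hinv
    have h1 : (⟨h, hh⟩ : H) ^ Nat.card H = 1 := pow_card_eq_one'
    rw [hH] at h1
    have h2 : h ^ 2 = 1 := by simpa using congrArg Subtype.val h1
    simpa using congrArg Subtype.val h2
  have hkey : ∀ H : Subgroup ↥(P : Subgroup X), Nat.card H = 2 → ∀ h : ↥(P : Subgroup X),
      h ∈ H ↔ ((h : X) = 1 ∨ (h : X) = z) := by
    intro H hH h
    constructor
    · exact hfwd H hH h
    · rintro (h1 | h1)
      · have : h = 1 := Subtype.ext h1
        rw [this]; exact one_mem _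
      · obtain ⟨h', hh', hne⟩ : ∃ h' ∈ H, h' ≠ 1 := by
          by_contra hcon
          have : H = ⊥ := by
            rw [eq_bot_iff]; intro x hx; rw [mem_bot]
            by_contra hne
            exact hcon ⟨x, hx, hne⟩
          rw [this, Subgroup.card_bot] at hH
          omega
        rcases hfwd H hH h' hh' with h2 | h2
        · exact absurd (Subtype.ext h2) hne
        · have : h = h' := Subtype.ext (h1.trans h2.symm)
          rw [this]; exact hh'
  have huniq : ∀ H K : Subgroup ↥(P : Subgroup X), Nat.card H = 2 → Nat.card K = 2 → H = K := by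
    intro H K hH hK
    ext h
    rw [hkey H hH, hkey K hK]
  rcases Cfsg.Agent.S0016.result 2 hP2 huniq with hcyc | ⟨-, n, ⟨e⟩⟩
  · exfalso
    obtain ⟨g, hg⟩ := hcyc.exists_generator
    have hcomm : ∀ x y : ↥(P : Subgroup X), x * y = y * x := by
      intro x y
      obtain ⟨m, rfl⟩ := Subgroup.mem_zpowers_iff.mp (hg x)
      obtain ⟨n, rfl⟩ := Subgroup.mem_zpowers_iff.mp (hg y)
      exact (Commute.zpow_zpow_self g m n).eq
    have h1 := congrArg Subtype.val (hcomm ⟨ι (a 1), hQP ⟨_, rfl⟩⟩ ⟨ι (xa 0), hQP ⟨_, rfl⟩⟩)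
    have h2 : ι (a 1 * xa 0) = ι (xa 0 * a 1) := by
      rw [map_mul, map_mul]; exact h1
    exact absurd (hι h2) (by decide)
  · obtain ⟨k, hk⟩ := hP2.exists_card_eq
    have h8 : 8 ∣ Nat.card (P : Subgroup X) := by
      rw [← hQcard]; exact Subgroup.card_dvd_of_le hQP
    have hidx := (P : Subgroup X).card_mul_index
    have hcop := P.card_coprime_index
    rw [hcard] at hidx
    rw [hk] at h8 hidx hcop
    have hk16 : k = 4 := by
      have hk6 : k < 6 := by
        by_contra hcon
        have h64 : 2 ^ 6 ≤ 2 ^ k := Nat.pow_le_pow_right (by norm_num) (not_lt.mp hcon)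
        have hpos : 0 < (P : Subgroup X).index := by
          rcases Nat.eq_zero_or_pos (P : Subgroup X).index with h0 | h0
          · rw [h0] at hidx; omega
          · exact h0
        nlinarith
      interval_cases k
      · omega
      · omega
      · omega
      · exfalso
        have : (P : Subgroup X).index = 6 := by omega
        rw [this] at hcop
        exact absurd hcop (by decide)
      · rfl
      · omega
    have hcardP : Nat.card (P : Subgroup X) = 16 := by rw [hk, hk16]; norm_num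
    have hcardQ : Nat.card (QuaternionGroup (2 ^ n)) = 4 * 2 ^ n := by
      rw [Nat.card_eq_fintype_card, QuaternionGroup.card]
    have hn : n = 2 := by
      have h1 : Nat.card (P : Subgroup X) = 4 * 2 ^ n := by
        rw [Nat.card_congr e.toEquiv, hcardQ]
      have h2 : 2 ^ n = 2 ^ 2 := by omega
      exact Nat.pow_right_injective (le_refl 2) h2
    subst hn
    exact ⟨e⟩

end Cfsg.Agent.Lib.Helper73
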