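import Mathlib
import Cfsg.Agent.Lib.Helper73.QuatReduce
import Cfsg.Agent.Lib.Helper73.Q8Concl
import Cfsg.Agent.Lib.Helper55.Cores
import Cfsg.Agent.S0016

/-!
# Groups whose Sylow `2`-intersections have rank one, with `O_2` self-centralizing
-/

set_option autoImplicit false

namespace Cfsg.Agent.Lib.Helper73

open QuaternionGroup

/-- Sylow intersections of rank one pass to the quotient by a normal subgroup of odd order -/
theorem pRank_lift {G : Type*} [Group G] [Finite G]
    (hI : ∀ S T : Sylow 2 G, S ≠ T → Cfsg.PRankLE 2 1 ↥((S : Subgroup G) ⊓ (T : Subgroup G)))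
    (H : Subgroup G) [H.Normal] (hH : (Nat.card H).Coprime 2) :
    ∀ S T : Sylow 2 (G ⧸ H), S ≠ T →
      Cfsg.PRankLE 2 1 ↥((S : Subgroup (G ⧸ H)) ⊓ (T : Subgroup (G ⧸ H))) := by
  intro S' T' hne
  have : Fact (Nat.Prime 2) := ⟨Nat.prime_two⟩
  have hsurj : Function.Surjective (QuotientGroup.mk' H) := QuotientGroup.mk'_surjective H
  obtain ⟨S, hS⟩ := Sylow.mapSurjective_surjective hsurj 2 S'
  obtain ⟨T, hT⟩ := Sylow.mapSurjective_surjective hsurj 2 T'
  have hS' : (S : Subgroup G).map (QuotientGroup.mk' H) = S' := by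
    rw [← hS]; rfl
  have hT' : (T : Subgroup G).map (QuotientGroup.mk' H) = T' := by
    rw [← hT]; rfl
  set K : Subgroup G := (S' : Subgroup (G ⧸ H)).comap (QuotientGroup.mk' H) with hK
  set B : Subgroup G := (T : Subgroup G) ⊓ K with hB
  have hSK : (S : Subgroup G) ≤ K := by
    rw [hK, ← Subgroup.map_le_iff_le_comap, hS']
  have hBK : B ≤ K := inf_le_right
  have hBT : B ≤ T := inf_le_left
  have hBp : IsPGroup 2 B := T.2.to_le hBT
  have hBp' : IsPGroup 2 (B.subgroupOf K) :=
    hBp.comap_of_injective K.subtype K.subtype_injective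
  obtain ⟨Q, hQ⟩ := hBp'.exists_le_sylow
  obtain ⟨g, hg⟩ := MulAction.exists_smul_eq K (S.subtype hSK) Q
  rw [Sylow.smul_subtype] at hg
  have hBgS : B ≤ (((g : G) • S : Sylow 2 G) : Subgroup G) := by
    intro b hb
    have h1 : (⟨b, hBK hb⟩ : K) ∈ B.subgroupOf K := by
      rw [Subgroup.mem_subgroupOf]; exact hb
    have h2 := hQ h1
    rw [← hg, Sylow.coe_subtype, Subgroup.mem_subgroupOf] at h2
    exact h2
  have hgS' : QuotientGroup.mk' H (g : G) ∈ (S' : Subgroup (G ⧸ H)) := g.2
  have hne' : ((g : G) • S : Sylow 2 G) ≠ T := by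
    intro heq
    apply hne
    symm
    have hle : (T' : Subgroup (G ⧸ H)) ≤ S' := by
      rw [← hT', Subgroup.map_le_iff_le_comap]
      intro t ht
      rw [← heq] at ht
      have ht' : t ∈ (((g : G) • S : Sylow 2 G) : Subgroup G) := ht
      rw [Sylow.coe_subgroup_smul] at ht'
      obtain ⟨s, hs, rfl⟩ := ht'
      show QuotientGroup.mk' H _ ∈ (S' : Subgroup (G ⧸ H))
      simp only [MulDistribMulAction.toMonoidEnd_apply, MulDistribMulAction.toMonoidHom_apply,
        MulAut.smul_def, MulAut.conj_apply, map_mul, map_inv]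
      have hs' : QuotientGroup.mk' H s ∈ (S' : Subgroup (G ⧸ H)) := by
        rw [← hS']; exact Subgroup.mem_map_of_mem _ hs
      exact mul_mem (mul_mem hgS' hs') (inv_mem hgS')
    exact Sylow.ext (T'.3 S'.2 hle).symm
  have hr := hI ((g : G) • S) T hne'
  have hBle : B ≤ (((g : G) • S : Sylow 2 G) : Subgroup G) ⊓ (T : Subgroup G) := le_inf hBgS hBT
  have hBr : Cfsg.PRankLE 2 1 ↥B :=
    pRankLE_of_injective (Subgroup.inclusion hBle) (Subgroup.inclusion_injective hBle) 2 1 hr
  have hmap : B.map (QuotientGroup.mk' H) = (S' : Subgroup (G ⧸ H)) ⊓ (T' : Subgroup (G ⧸ H)) := by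
    apply le_antisymm
    · rw [Subgroup.map_le_iff_le_comap]
      intro b hb
      refine ⟨hBK hb, ?_⟩
      rw [← hT']
      exact Subgroup.mem_map_of_mem _ (hBT hb)
    · intro d hd
      have hd2 : d ∈ (T : Subgroup G).map (QuotientGroup.mk' H) := by rw [hT']; exact hd.2
      obtain ⟨t, ht, rfl⟩ := hd2
      exact Subgroup.mem_map_of_mem _ ⟨ht, hd.1⟩
  rw [← hmap]
  -- the quotient map is injective on `B`
  have hdisj : H ⊓ B = ⊥ := by
    apply Disjoint.eq_bot
    apply Subgroup.disjoint_of_coprime_natCard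
    obtain ⟨k, hk⟩ := hBp.exists_card_eq
    rw [hk]
    exact Nat.Coprime.pow_right k hH
  have hinj : Function.Injective ((QuotientGroup.mk' H).subgroupMap B) := by
    rw [injective_iff_map_eq_one]
    intro b hb
    have h1 : QuotientGroup.mk' H (b : G) = 1 := congrArg Subtype.val hb
    have h2 : (b : G) ∈ H := (QuotientGroup.eq_one_iff _).mp h1
    have h3 : (b : G) ∈ H ⊓ B := ⟨h2, b.2⟩
    rw [hdisj, Subgroup.mem_bot] at h3
    exact Subtype.ext h3
  let e : ↥B ≃* ↥(B.map (QuotientGroup.mk' H)) :=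
    MulEquiv.ofBijective ((QuotientGroup.mk' H).subgroupMap B)
      ⟨hinj, (QuotientGroup.mk' H).subgroupMap_surjective B⟩
  exact pRankLE_of_injective e.symm.toMonoidHom e.symm.injective 2 1 hBr

/-- the main structure theorem, for a group in which `O_2` contains its centralizer -/
theorem rank_one_main {X : Type*} [Group X] [Finite X]
    (hI : ∀ S T : Sylow 2 X, S ≠ T → Cfsg.PRankLE 2 1 ↥((S : Subgroup X) ⊓ (T : Subgroup X)))
    (hcent : Subgroup.centralizer (Cfsg.pCore 2 X : Set X) ≤ Cfsg.pCore 2 X) :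
    (∃ P : Sylow 2 X, (P : Subgroup X).Normal) ∨ Nonempty (X ≃* GL (Fin 2) (ZMod 3)) ∨
    (Nat.card X = 48 ∧ Nat.card ↥(Subgroup.center X) = 2 ∧
      Nonempty (X ⧸ Subgroup.center X ≃* Equiv.Perm (Fin 4)) ∧
      ∀ P : Sylow 2 X, Nonempty (↥(P : Subgroup X) ≃* QuaternionGroup 4)) := by
  have : Fact (Nat.Prime 2) := ⟨Nat.prime_two⟩
  by_cases hss : ∀ S T : Sylow 2 X, S = T
  · obtain ⟨P⟩ : Nonempty (Sylow 2 X) := inferInstance
    have : Subsingleton (Sylow 2 X) := ⟨hss⟩
    exact Or.inl ⟨P, Sylow.normal_of_subsingleton P⟩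
  right
  have hnot2 : ¬ IsPGroup 2 X := by
    intro hX2
    apply hss
    intro S T
    have hS : (⊤ : Subgroup X) = S := S.3 (hX2.to_subgroup ⊤) le_top
    have hT : (⊤ : Subgroup X) = T := T.3 (hX2.to_subgroup ⊤) le_top
    exact Sylow.ext (hS.symm.trans hT)
  obtain ⟨S, T, hST⟩ : ∃ S T : Sylow 2 X, S ≠ T := by
    by_contra hcon
    apply hss
    intro S T
    by_contra hne
    exact hcon ⟨S, T, hne⟩
  obtain ⟨Q, hQdef⟩ : ∃ Q : Subgroup X, Q = Cfsg.pCore 2 X := ⟨_, rfl⟩
  rw [← hQdef] at hcent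
  have hQn : Q.Normal := hQdef ▸ Cfsg.pCore_normal 2 X
  have hQ2 : IsPGroup 2 Q := hQdef ▸ Cfsg.Agent.Lib.Helper55.pCore_isPGroup 2 X
  have hQle : ∀ P : Sylow 2 X, Q ≤ P := fun P => hQdef ▸ Cfsg.Agent.Lib.Helper55.pCore_le_sylow P
  have hQr : Cfsg.PRankLE 2 1 ↥Q :=
    pRankLE_of_injective (Subgroup.inclusion (le_inf (hQle S) (hQle T)))
      (Subgroup.inclusion_injective _) 2 1 (hI S T hST)
  have hcyc : ¬ IsCyclic Q := fun hQc =>
    hnot2 (Cfsg.Agent.Lib.Helper55.isPGroup_two_of_cyclic_self_centralizing Q hQc hQ2 hcent)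
  rcases Cfsg.Agent.S0016.result 2 hQ2 (unique_involution_of_pRank hQ2 hQr) with
    hQc | ⟨-, n, ⟨e⟩⟩
  · exact absurd hQc hcyc
  rcases Nat.lt_or_ge n 2 with hn | hn
  · interval_cases n
    · exfalso
      apply hcyc
      have e' : ↥Q ≃* QuaternionGroup 1 := e
      have := QuaternionGroup.quaternionGroup_one_isCyclic
      exact isCyclic_of_surjective e'.symm e'.symm.surjective
    · -- the quaternion group of order eight
      have e' : ↥Q ≃* QuaternionGroup 2 := e
      obtain ⟨ι, hιdef⟩ : ∃ ι : QuaternionGroup 2 →* X, ι = Q.subtype.comp e'.symm.toMonoidHom :=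
        ⟨_, rfl⟩
      have hι : Function.Injective ι := by
        rw [hιdef]
        exact Q.subtype_injective.comp e'.symm.injective
      have hrange : ι.range = Q := by
        ext x
        constructor
        · rintro ⟨y, rfl⟩
          rw [hιdef]
          exact (e'.symm y).2
        · intro hx
          refine ⟨e' ⟨x, hx⟩, ?_⟩
          rw [hιdef]
          simp
      have hn' : ι.range.Normal := hrange.symm ▸ hQn
      have hC : Subgroup.centralizer (ι.range : Set X) ≤ ι.range := by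
        rw [hrange]; exact hcent
      have hQcard : Nat.card Q = 8 := by
        rw [Nat.card_congr e'.toEquiv, Nat.card_eq_fintype_card, QuaternionGroup.card]
      have h16 : 16 ∣ Nat.card X := by
        obtain ⟨k, hk⟩ := S.isPGroup'.exists_card_eq
        have h8 : 2 ^ 3 ∣ 2 ^ k := by
          rw [← hk]
          have := Subgroup.card_dvd_of_le (hQle S)
          rwa [hQcard] at this
        have hk3 : 3 ≤ k := (Nat.pow_dvd_pow_iff_le_right (by norm_num)).mp h8
        have hk4 : 4 ≤ k := by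
          by_contra hcon
          have hk3' : k = 3 := by omega
          rw [hk3'] at hk
          apply hST
          have hSQ : Q = S := Subgroup.eq_of_le_of_card_ge (hQle S) (by rw [hk, hQcard]; norm_num)
          have hTcard : Nat.card (T : Subgroup X) = 2 ^ 3 := by
            rw [← hk, Sylow.card_eq_multiplicity, Sylow.card_eq_multiplicity]
          have hTQ : Q = T := Subgroup.eq_of_le_of_card_ge (hQle T) (by rw [hTcard, hQcard]; norm_num)
          exact Sylow.ext (hSQ.symm.trans hTQ)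
        have h1 : 2 ^ 4 ∣ 2 ^ k := pow_dvd_pow 2 hk4
        rw [← hk] at h1
        exact h1.trans (Subgroup.card_subgroup_dvd_card _)
      obtain ⟨hcard, c, t, k, hk, hrel, hgen, hc, ht, hker, hzc⟩ :=
        q8_structure ι hι hC h16 hnot2
      rcases hk with rfl | rfl
      · exact Or.inl (q8_gl23 hcard hrel hgen)
      · exact Or.inr ⟨hcard, q8_binary_octahedral ι hι hcard hrel hgen hc ht hker hzc⟩
  · exfalso
    apply hnot2
    exact isPGroup_two_of_mulAut Q hQ2 hcent
      ((quat_mulAut_isPGroup n hn).of_equiv (MulAut.congr e.symm))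

end Cfsg.Agent.Lib.Helper73
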